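import Mathlib
import Cfsg.Agent.Base
import Cfsg.Agent.Lib.Perm27.Basic

/-! `k`-homogeneous permutation groups: Wielandt's descent, Gleason's lemma. -/

set_option autoImplicit false

open MulAction
open scoped Pointwise

namespace H27

variable {G α : Type*} [Group G] [MulAction G α]

/-- Transitivity on `k`-subsets. -/
def Homog (G α : Type*) [Group G] [MulAction G α] [DecidableEq α] (k : ℕ) : Prop :=
  ∀ s t : Finset α, s.card = k → t.card = k → ∃ g : G, g • s = t

theorem homog_iff [DecidableEq α] {k : ℕ} :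
    IsPretransitive G (Set.powersetCard α k) ↔ Homog G α k := by
  constructor
  · intro h s t hs ht
    obtain ⟨g, hg⟩ := h.exists_smul_eq ⟨s, hs⟩ ⟨t, ht⟩
    exact ⟨g, congrArg Subtype.val hg⟩
  · intro h
    refine ⟨fun s t => ?_⟩
    obtain ⟨g, hg⟩ := h s.1 t.1 s.2 t.2
    exact ⟨g, Subtype.ext hg⟩

theorem Homog.pair [DecidableEq α] (h : Homog G α 2) {a b c d : α} (hab : a ≠ b) (hcd : c ≠ d) :
    ∃ g : G, (g • a = c ∧ g • b = d) ∨ (g • a = d ∧ g • b = c) := by
  obtain ⟨g, hg⟩ := h {a, b} {c, d} (Finset.card_pair hab) (Finset.card_pair hcd)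
  refine ⟨g, ?_⟩
  have h1 : g • a ∈ ({c, d} : Finset α) := hg ▸ Finset.smul_mem_smul_finset (by simp)
  have h2 : g • b ∈ ({c, d} : Finset α) := hg ▸ Finset.smul_mem_smul_finset (by simp)
  have h3 : g • a ≠ g • b := fun e => hab (smul_left_cancel g e)
  simp only [Finset.mem_insert, Finset.mem_singleton] at h1 h2
  rcases h1 with h1 | h1 <;> rcases h2 with h2 | h2
  · exact absurd (h1.trans h2.symm) h3
  · exact Or.inl ⟨h1, h2⟩
  · exact Or.inr ⟨h1, h2⟩
  · exact absurd (h1.trans h2.symm) h3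

theorem Homog.two_trans_of_swap [DecidableEq α] (h : Homog G α 2) {t : G} {x y : α} (hxy : x ≠ y)
    (h1 : t • x = y) (h2 : t • y = x) : IsMultiplyPretransitive G α 2 := by
  refine is_two_pretransitive_iff.2 fun {a b c d} hab hcd => ?_
  obtain ⟨g, hg⟩ := h.pair hab hxy
  obtain ⟨k, hk⟩ := h.pair hxy hcd
  rcases hg with ⟨e1, e2⟩ | ⟨e1, e2⟩ <;> rcases hk with ⟨e3, e4⟩ | ⟨e3, e4⟩
  · exact ⟨k * g, by rw [mul_smul, e1, e3], by rw [mul_smul, e2, e4]⟩
  · exact ⟨k * t * g, by rw [mul_smul, mul_smul, e1, h1, e4], by rw [mul_smul, mul_smul, e2, h2, e3]⟩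
  · exact ⟨k * t * g, by rw [mul_smul, mul_smul, e1, h2, e3], by rw [mul_smul, mul_smul, e2, h1, e4]⟩
  · exact ⟨k * g, by rw [mul_smul, e1, e4], by rw [mul_smul, e2, e3]⟩

theorem Homog.two_trans_of_even [DecidableEq α] [Finite G] [FaithfulSMul G α] (h : Homog G α 2)
    (he : Even (Nat.card G)) : IsMultiplyPretransitive G α 2 := by
  obtain ⟨t, ht⟩ := exists_prime_orderOf_dvd_card' (G := G) 2 he.two_dvd
  obtain ⟨x, hx⟩ : ∃ x : α, t • x ≠ x := by
    by_contra hc
    push Not at hc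
    rw [eq_of_smul_eq_smul (α := α) (m₂ := 1) (fun x => by rw [hc, one_smul] : ∀ x : α, t • x = _)]
      at ht
    simp at ht
  exact h.two_trans_of_swap hx.symm rfl (by
    rw [← mul_smul, ← pow_two, ← ht, pow_orderOf_eq_one, one_smul])

theorem Homog.trans_of_two [DecidableEq α] [Fintype α] (h : Homog G α 2)
    (h3 : 3 ≤ Fintype.card α) : IsPretransitive G α := by
  refine ⟨fun a b => ?_⟩
  by_cases hab : a = b
  · exact ⟨1, by rw [hab, one_smul]⟩
  obtain ⟨c, hc⟩ : ∃ c, c ∉ ({a, b} : Finset α) := by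
    by_contra hc
    push Not at hc
    have := Finset.card_le_card (s := Finset.univ) fun x _ => hc x
    rw [Finset.card_pair hab, Finset.card_univ] at this
    omega
  simp only [Finset.mem_insert, Finset.mem_singleton, not_or] at hc
  obtain ⟨g, ⟨-, e⟩ | ⟨e, -⟩⟩ := h.pair hab (Ne.symm hc.1)
  · obtain ⟨k, ⟨e', -⟩ | ⟨e', -⟩⟩ := h.pair hab (Ne.symm hc.2)
    · exact ⟨k, e'⟩
    · exact ⟨g⁻¹ * k, by rw [mul_smul, e', inv_smul_eq_iff, e]⟩
  · obtain ⟨k, ⟨-, e'⟩ | ⟨-, e'⟩⟩ := h.pair hab (Ne.symm hc.1)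
    · exact ⟨k⁻¹ * g, by rw [mul_smul, e, inv_smul_eq_iff, e']⟩
    · exact ⟨k⁻¹, by rw [inv_smul_eq_iff, e']⟩

theorem Homog.prim_of_two [DecidableEq α] [Fintype α] (h : Homog G α 2)
    (h3 : 3 ≤ Fintype.card α) : IsPreprimitive G α := by
  have := h.trans_of_two h3
  refine ⟨fun {B} hB => ?_⟩
  by_cases hs : B.Subsingleton
  · exact Or.inl hs
  right
  obtain ⟨x, hx, y, hy, hxy⟩ := Set.not_subsingleton_iff.1 hs
  refine Set.eq_univ_of_forall fun z => ?_
  by_cases hz : z = x
  · exact hz ▸ hx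
  obtain ⟨g, ⟨e1, e2⟩ | ⟨e1, e2⟩⟩ := h.pair hxy (Ne.symm hz)
  · rw [← hB.smul_eq_of_mem hx (by rwa [e1] : g • x ∈ B), ← e2]
    exact Set.smul_mem_smul_set hy
  · rw [← hB.smul_eq_of_mem hy (by rwa [e2] : g • y ∈ B), ← e1]
    exact Set.smul_mem_smul_set hx

theorem multi_of_forall_fix [Fintype α] {k : ℕ} (hkn : k + 1 < Fintype.card α)
    (h : ∀ T : Finset α, T.card = k → ∀ c d : α, c ∉ T → d ∉ T →
      ∃ g : G, (∀ a ∈ T, g • a = a) ∧ g • c = d) : IsMultiplyPretransitive G α (k + 1) := by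
  classical
  have key : ∀ j, j ≤ k + 1 → IsMultiplyPretransitive G α j := by
    intro j
    induction j with
    | zero => exact fun _ => is_zero_pretransitive
    | succ j ih =>
      intro hj
      obtain ⟨T, -, hT⟩ := Finset.exists_subset_card_eq (s := (Finset.univ : Finset α)) (n := j)
        (by rw [Finset.card_univ]; omega)
      refine isMultiplyPretransitive_succ_of_fix (ih (by omega)) T hT fun c d hc hd => ?_
      obtain ⟨T', h1, h2, h3⟩ := Finset.exists_subsuperset_card_eq (s := T)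
        (t := ({c, d} : Finset α)ᶜ) (n := k) (fun x hx => by
          simp only [Finset.mem_compl, Finset.mem_insert, Finset.mem_singleton, not_or]
          exact ⟨fun e => hc (e ▸ hx), fun e => hd (e ▸ hx)⟩) (by omega) (by
          rw [Finset.card_compl]
          have := Finset.card_le_two (a := c) (b := d)
          omega)
      obtain ⟨g, hg, e⟩ := h T' h3 c d (fun e => by simpa using h2 e) (fun e => by simpa using h2 e)
      exact ⟨g, fun a ha => hg a (h1 ha), e⟩
  exact key _ le_rfl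

theorem card_modEq_fixed [Finite α] {p : ℕ} [Fact p.Prime] {P : Subgroup G} (hP : IsPGroup p P)
    (S : Set α) (hS : ∀ g ∈ P, ∀ x ∈ S, g • x ∈ S) :
    S.ncard ≡ (S ∩ fixedPoints P α).ncard [MOD p] := by
  let M : SubMulAction P α := ⟨S, fun g _ hx => hS g g.2 _ hx⟩
  have h1 := hP.card_modEq_card_fixedPoints M
  rw [← Nat.card_coe_set_eq, ← Nat.card_coe_set_eq]
  refine h1.trans ?_
  rw [Nat.card_congr (β := ↥(S ∩ fixedPoints P α))
    ⟨fun x => ⟨x.1.1, x.1.2, fun g => congrArg Subtype.val (x.2 g)⟩,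
      fun x => ⟨⟨x.1, x.2.1⟩, fun g => Subtype.ext (x.2.2 g)⟩, fun _ => rfl, fun _ => rfl⟩]

/-- Gleason's lemma. -/
theorem gleason [Fintype α] {p k : ℕ} (hp : p.Prime) (hkn : k + 1 < Fintype.card α)
    (h : ∀ s : Finset α, s.card = k + 1 →
      ∃ P : Subgroup G, IsPGroup p P ∧ fixedPoints P α = (s : Set α)) :
    IsMultiplyPretransitive G α (k + 1) := by
  classical
  have := Fact.mk hp
  refine multi_of_forall_fix hkn fun T hT c d hc hd => ?_
  by_contra hne
  let S : Set α := {y | ∃ g : G, (∀ a ∈ T, g • a = a) ∧ g • c = y}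
  have hST : ∀ y ∈ S, y ∉ T := by
    rintro _ ⟨g, hg, rfl⟩ hy
    exact hc (smul_left_cancel g (hg _ hy) ▸ hy)
  have key : ∀ x, x ∉ T → S.ncard ≡ (S ∩ {x}).ncard [MOD p] := by
    intro x hx
    obtain ⟨P, hP, e⟩ := h (insert x T) (by rw [Finset.card_insert_of_notMem hx, hT])
    have h1 := card_modEq_fixed hP S (by
      rintro g hg _ ⟨k, hk, rfl⟩
      refine ⟨g * k, fun a ha => ?_, mul_smul _ _ _⟩
      have : a ∈ fixedPoints P α := by rw [e]; simp [ha]
      rw [mul_smul, hk a ha]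
      exact this ⟨g, hg⟩)
    rw [e] at h1
    convert h1 using 2
    ext y
    simp only [Set.mem_inter_iff, Set.mem_singleton_iff, Finset.coe_insert, Set.mem_insert_iff,
      Finset.mem_coe]
    exact ⟨fun h => ⟨h.1, Or.inl h.2⟩, fun h => ⟨h.1, h.2.resolve_right (hST y h.1)⟩⟩
  have h1 := key c hc
  have h2 := key d hd
  rw [Set.inter_eq_self_of_subset_right (by
    rintro _ rfl; exact ⟨1, fun a _ => one_smul _ _, one_smul _ _⟩), Set.ncard_singleton] at h1
  rw [Set.inter_singleton_eq_empty.2 (show d ∉ S from hne), Set.ncard_empty] at h2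
  exact hp.one_lt.ne' (Nat.dvd_one.1 ((Nat.modEq_zero_iff_dvd.1 (h1.symm.trans h2))))

theorem card_mul_relIndex {H K : Subgroup G} (h : H ≤ K) :
    Nat.card H * H.relIndex K = Nat.card K := by
  rw [← (H.subgroupOf K).card_mul_index, Nat.card_congr (Subgroup.subgroupOfEquivOfLe h).toEquiv]
  rfl

theorem pred_trans_of_card [Fintype α] [Finite G] [FaithfulSMul G α] {k l m : ℕ}
    (hkn : k + 2 ≤ Fintype.card α) (hl : 1 < l)
    (h1 : ∀ s : Finset α, s.card = k + 1 → Nat.card (fixingSubgroup G (s : Set α)) = l)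
    (h2 : ∀ s : Finset α, s.card = k + 2 → Nat.card (fixingSubgroup G (s : Set α)) = m) :
    IsMultiplyPretransitive G α (k + 1) := by
  classical
  have hle : ∀ (s : Finset α) (x : α), fixingSubgroup G ((insert x s : Finset α) : Set α) ≤
      fixingSubgroup G (s : Set α) := fun s x => fixingSubgroup_antitone G α (by simp)
  obtain ⟨T, -, hT⟩ := Finset.exists_subset_card_eq (s := (Finset.univ : Finset α)) (n := k + 1)
    (by rw [Finset.card_univ]; omega)
  have hm : m ≠ l := by
    rintro rfl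
    refine hl.ne' ?_
    rw [← h1 T hT, ← Subgroup.eq_bot_iff_card, eq_bot_iff]
    intro g hg
    refine eq_of_smul_eq_smul (α := α) fun x => ?_
    rw [one_smul]
    by_cases hx : x ∈ T
    · exact hg ⟨x, hx⟩
    · rw [← Subgroup.eq_of_le_of_card_ge (hle T x) (by
        rw [h1 T hT, h2 _ (by rw [Finset.card_insert_of_notMem hx, hT])])] at hg
      exact hg ⟨x, by simp⟩
  obtain ⟨x, hx⟩ : ∃ x, x ∉ T := by
    by_contra hc
    push Not at hc
    have := Finset.card_le_card (s := Finset.univ) fun x _ => hc x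
    rw [Finset.card_univ] at this
    omega
  obtain ⟨r, hr⟩ := Subgroup.card_dvd_of_le (hle T x)
  rw [h1 T hT, h2 _ (by rw [Finset.card_insert_of_notMem hx, hT])] at hr
  obtain ⟨p, hp, hpr⟩ := Nat.exists_prime_and_dvd (n := r) (by rintro rfl; simp [hr] at hm)
  have := Fact.mk hp
  refine gleason hp (by omega) fun s hs => ?_
  obtain ⟨P⟩ : Nonempty (Sylow p (fixingSubgroup G (s : Set α))) := inferInstance
  refine ⟨(P : Subgroup (fixingSubgroup G (s : Set α))).map (fixingSubgroup G (s : Set α)).subtype,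
    P.2.map _, ?_⟩
  ext y
  refine ⟨fun hy => ?_, ?_⟩
  · by_contra hys
    have h3 : (fixingSubgroup G ((insert y s : Finset α) : Set α)).relIndex
        (fixingSubgroup G (s : Set α)) = r := by
      have h4 := card_mul_relIndex (hle s y)
      rw [h1 s hs, h2 _ (by rw [Finset.card_insert_of_notMem hys, hs]), hr] at h4
      exact Nat.eq_of_mul_eq_mul_left (Nat.pos_of_ne_zero (by rintro rfl; omega)) h4
    refine P.not_dvd_index (hpr.trans (h3 ▸ Subgroup.index_dvd_of_le fun g hg => ?_))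
    rintro ⟨z, hz⟩
    rcases Finset.mem_insert.1 hz with rfl | hz
    · exact hy ⟨g, g, hg, rfl⟩
    · exact g.2 ⟨z, hz⟩
  · rintro hy ⟨_, g, -, rfl⟩
    exact g.2 ⟨y, hy⟩

theorem not_dvd_choose {p a k : ℕ} (hp : p.Prime) (hk : p ^ a ∣ k) :
    ¬ p ∣ (k + (p ^ a - 1)).choose (p ^ a - 1) := by
  rw [Nat.add_choose_eq, Finset.Nat.sum_antidiagonal_eq_sum_range_succ_mk, Finset.sum_range_succ',
    Nat.dvd_add_right (Finset.dvd_sum fun i hi => Dvd.dvd.mul_right ?_ _)]
  · simp [hp.one_lt.ne']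
  by_contra hc
  have h1 : p ^ a ∣ k.choose (i + 1) * (i + 1) := by
    rcases k with _ | k
    · simp
    rw [← Nat.add_one_mul_choose_eq]
    exact hk.mul_right _
  have h2 := Nat.le_of_dvd (Nat.succ_pos i)
    ((Nat.Coprime.pow_left a ((Nat.Prime.coprime_iff_not_dvd hp).2 hc)).dvd_of_dvd_mul_left h1)
  have := Finset.mem_range.1 hi
  omega

/-- Wielandt's descent. -/
theorem Homog.pred [Fintype α] [DecidableEq α] {k : ℕ} (hk : 1 ≤ k) (h : Homog G α (k + 1))
    (hq : ∀ q : ℕ, IsPrimePow q → q ∣ k + 1 → k + q ≤ Fintype.card α) : Homog G α k := by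
  classical
  intro s t hs ht
  have hn : k + 1 ≤ Fintype.card α := by
    obtain ⟨p, hp, hd⟩ := Nat.exists_prime_and_dvd (n := k + 1) (by omega)
    have := hq p hp.isPrimePow hd
    have := hp.two_le
    omega
  let D : Finset α → Prop := fun u => ∃ g : G, g • s = u
  have hD : ∀ u, D u → u.card = k := by
    rintro _ ⟨g, rfl⟩; rw [Finset.card_smul_finset, hs]
  let N : Finset α → ℕ := fun M => ((M.powersetCard k).filter D).card
  have hN : ∀ K K' : Finset α, K.card = k + 1 → K'.card = k + 1 → N K = N K' := by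
    intro K K' hK hK'
    obtain ⟨g, rfl⟩ := h K K' hK hK'
    refine Finset.card_bij (fun u _ => g • u) (fun u hu => ?_) (fun u _ v _ e => smul_left_cancel g e)
      (fun v hv => ⟨g⁻¹ • v, ?_, smul_inv_smul g v⟩)
    · simp only [Finset.mem_filter, Finset.mem_powersetCard] at hu ⊢
      obtain ⟨⟨h1, h2⟩, x, rfl⟩ := hu
      exact ⟨⟨Finset.smul_finset_subset_smul_finset h1, by rwa [Finset.card_smul_finset]⟩,
        g * x, mul_smul _ _ _⟩
    · simp only [Finset.mem_filter, Finset.mem_powersetCard] at hv ⊢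
      obtain ⟨⟨h1, h2⟩, x, rfl⟩ := hv
      exact ⟨⟨Finset.smul_finset_subset_iff.2 (by rwa [inv_inv]), by rwa [Finset.card_smul_finset]⟩,
        g⁻¹ * x, mul_smul _ _ _⟩
  obtain ⟨K, hsK, -, hK⟩ := Finset.exists_subsuperset_card_eq (s := s) (t := Finset.univ)
    (n := k + 1) (Finset.subset_univ _) (by omega) (by rwa [Finset.card_univ])
  obtain ⟨K', htK, -, hK'⟩ := Finset.exists_subsuperset_card_eq (s := t) (t := Finset.univ)
    (n := k + 1) (Finset.subset_univ _) (by omega) (by rwa [Finset.card_univ])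
  have hpos : 0 < N K := Finset.card_pos.2 ⟨s, by
    simp only [Finset.mem_filter, Finset.mem_powersetCard]
    exact ⟨⟨hsK, hs⟩, 1, one_smul _ _⟩⟩
  have hdvd : k + 1 ∣ N K := by
    rw [Nat.dvd_iff_prime_pow_dvd_dvd]
    intro p a hp ha
    rcases a with _ | a
    · simp
    have h1 := hq _ (hp.isPrimePow.pow (Nat.succ_ne_zero a)) ha
    obtain ⟨M, -, hM⟩ := Finset.exists_subset_card_eq (s := (Finset.univ : Finset α))
      (n := k + p ^ (a + 1)) (by rwa [Finset.card_univ])
    have h2 := Finset.card_mul_eq_card_mul (s := (M.powersetCard k).filter D)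
      (t := M.powersetCard (k + 1)) (fun u L => u ⊆ L) (m := p ^ (a + 1)) (n := N K)
      (fun u hu => ?_) (fun L hL => ?_)
    · have h3 : 0 < p ^ (a + 1) := pow_pos hp.pos _
      have h4 := not_dvd_choose hp ha
      rw [Finset.card_powersetCard, hM] at h2
      rw [← Nat.choose_symm_add, show k + 1 + (p ^ (a + 1) - 1) = k + p ^ (a + 1) by omega] at h4
      exact (Nat.Coprime.pow_left _ ((Nat.Prime.coprime_iff_not_dvd hp).2 h4)).dvd_of_dvd_mul_left
        (h2 ▸ dvd_mul_left _ _)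
    · simp only [Finset.mem_filter, Finset.mem_powersetCard] at hu
      obtain ⟨⟨h3, h4⟩, -⟩ := hu
      have : p ^ (a + 1) = (M \ u).card := by rw [Finset.card_sdiff_of_subset h3]; omega
      rw [this]
      refine (Finset.card_bij (fun x _ => insert x u) (fun x hx => ?_) (fun x hx y hy e => ?_)
        (fun L hL => ?_)).symm
      · rw [Finset.mem_sdiff] at hx
        rw [Finset.mem_bipartiteAbove, Finset.mem_powersetCard]
        exact ⟨⟨Finset.insert_subset hx.1 h3, by rw [Finset.card_insert_of_notMem hx.2, h4]⟩,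
          Finset.subset_insert _ _⟩
      · rw [Finset.mem_sdiff] at hx hy
        exact (Finset.insert_inj hx.2).1 e
      · rw [Finset.mem_bipartiteAbove, Finset.mem_powersetCard] at hL
        obtain ⟨x, hx, e⟩ := Finset.exists_eq_insert_iff.2 ⟨hL.2, by omega⟩
        exact ⟨x, Finset.mem_sdiff.2 ⟨hL.1.1 (e ▸ Finset.mem_insert_self _ _), hx⟩, e⟩
    · rw [Finset.mem_powersetCard] at hL
      rw [hN K L hK hL.2]
      congr 1
      ext u
      simp only [Finset.mem_bipartiteBelow, Finset.mem_filter, Finset.mem_powersetCard]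
      exact ⟨fun h => ⟨⟨h.2, h.1.1.2⟩, h.1.2⟩, fun h => ⟨⟨⟨h.1.1.trans hL.1, h.1.2⟩, h.2⟩, h.1.1⟩⟩
  have h5 := Finset.eq_of_subset_of_card_le (Finset.filter_subset D (K'.powersetCard k)) (by
    rw [Finset.card_powersetCard, hK', Nat.choose_succ_self_right]
    exact (Nat.le_of_dvd hpos hdvd).trans (hN K K' hK hK').le)
  have : t ∈ (K'.powersetCard k).filter D := by
    rw [h5, Finset.mem_powersetCard]; exact ⟨htK, ht⟩
  exact (Finset.mem_filter.1 this).2

end H27
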