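import Mathlib
import Cfsg.Agent.Base
import Cfsg.Agent.Lib.Perm.Basic
import Cfsg.Agent.Lib.Perm27.Zass

/-! Involutions in quadruply transitive groups with four-point stabilisers of odd order
(the arguments of Jordan and M. Hall). -/

set_option autoImplicit false

open MulAction

namespace H27

variable {G α : Type*} [Group G] [MulAction G α]

/-- Four distinct points. -/
structure D4 (a b c d : α) : Prop where
  ab : a ≠ b
  ac : a ≠ c
  ad : a ≠ d
  bc : b ≠ c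
  bd : b ≠ d
  cd : c ≠ d

/-- `g` maps four points to four points. -/
structure M4 (g : G) (a b c d a' b' c' d' : α) : Prop where
  h1 : g • a = a'
  h2 : g • b = b'
  h3 : g • c = c'
  h4 : g • d = d'

/-- Quadruply transitive, no involution fixes four points. -/
structure Q4 (G α : Type*) [Group G] [MulAction G α] : Prop where
  tr : IsMultiplyPretransitive G α 4
  odd : ∀ (g : G) (a b c d : α), D4 a b c d → M4 g a b c d a b c d → g * g = 1 → g = 1

/-- The pointwise stabiliser of four points. -/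
def st4 (G : Type*) [Group G] [MulAction G α] (a b c d : α) : Subgroup G :=
  stabilizer G a ⊓ stabilizer G b ⊓ stabilizer G c ⊓ stabilizer G d

variable {a b c d a' b' c' d' a'' b'' c'' d'' : α} {g k : G}

theorem mem_st4 : g ∈ st4 G a b c d ↔ M4 g a b c d a b c d :=
  ⟨fun h => ⟨h.1.1.1, h.1.1.2, h.1.2, h.2⟩, fun h => ⟨⟨⟨h.1, h.2⟩, h.3⟩, h.4⟩⟩

theorem M4.mul (h : M4 g a' b' c' d' a'' b'' c'' d'') (h' : M4 k a b c d a' b' c' d') :
    M4 (g * k) a b c d a'' b'' c'' d'' :=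
  ⟨by rw [mul_smul, h'.1, h.1], by rw [mul_smul, h'.2, h.2], by rw [mul_smul, h'.3, h.3],
    by rw [mul_smul, h'.4, h.4]⟩

theorem M4.inv (h : M4 g a b c d a' b' c' d') : M4 g⁻¹ a' b' c' d' a b c d :=
  ⟨inv_smul_eq_iff.2 h.1.symm, inv_smul_eq_iff.2 h.2.symm, inv_smul_eq_iff.2 h.3.symm,
    inv_smul_eq_iff.2 h.4.symm⟩

theorem smul_fix_of_comm {x : α} (h : g * k = k * g) (hx : k • x = x) : k • g • x = g • x := by
  rw [← mul_smul, ← h, mul_smul, hx]

theorem conj_smul_eq {x y : α} (γ : G) (h : g • x = y) : (γ * g * γ⁻¹) • γ • x = γ • y := by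
  rw [mul_smul, mul_smul, inv_smul_smul, h]

theorem conj_mul_self (γ : G) (h : g * g = 1) : γ * g * γ⁻¹ * (γ * g * γ⁻¹) = 1 := by
  calc _ = γ * (g * g) * γ⁻¹ := by group
    _ = 1 := by rw [h]; group

namespace Q4

variable (h : Q4 G α)
include h

theorem exists_map (h1 : D4 a b c d) (h2 : D4 a' b' c' d') :
    ∃ g : G, M4 g a b c d a' b' c' d' := by
  obtain ⟨g, e1, e2, e3, e4⟩ := H26.trans4 h.tr h1.1 h1.2 h1.3 h1.4 h1.5 h1.6 h2.1 h2.2 h2.3 h2.4
    h2.5 h2.6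
  exact ⟨g, e1, e2, e3, e4⟩

variable [Finite G]

theorem odd_card (h1 : D4 a b c d) : Odd (Nat.card (st4 G a b c d)) := by
  rw [← Nat.not_even_iff_odd, even_iff_two_dvd]
  intro h2
  obtain ⟨t, ht⟩ := exists_prime_orderOf_dvd_card' (G := st4 G a b c d) 2 h2
  have h3 : t * t = 1 := by rw [← pow_two, ← ht, pow_orderOf_eq_one]
  have := h.odd t a b c d h1 (mem_st4.1 t.2) (congrArg Subtype.val h3)
  rw [show t = 1 from Subtype.ext this] at ht
  simp at ht

/-- An element whose square fixes four points has an odd power which is an involution. -/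
theorem exists_invol (h1 : D4 a b c d) (hg : g * g ∈ st4 G a b c d) :
    ∃ u : G, u * u = 1 ∧ (∃ e ∈ st4 G a b c d, u = g * e) ∧ ∀ k : G, k * g = g * k → k * u = u * k := by
  obtain ⟨m, hm⟩ := h.odd_card h1
  refine ⟨g ^ (2 * m + 1), ?_, ⟨(g * g) ^ m, Subgroup.pow_mem _ hg m, ?_⟩,
    fun k hk => (Commute.pow_right hk _).eq⟩
  · rw [← (Commute.refl g).mul_pow, ← hm]
    exact congrArg Subtype.val (pow_card_eq_one' (x := (⟨_, hg⟩ : st4 G a b c d)))
  · rw [← pow_two, ← pow_mul, pow_succ']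

/-- An involution with two fixed points and a prescribed transposition. -/
theorem exists_transp (h1 : D4 a b c d) : ∃ u : G, u * u = 1 ∧ M4 u a b c d b a c d := by
  obtain ⟨g, hg⟩ := h.exists_map h1 (⟨h1.ab.symm, h1.bc, h1.bd, h1.ac, h1.ad, h1.cd⟩ : D4 b a c d)
  obtain ⟨u, hu, ⟨e, he, rfl⟩, -⟩ := h.exists_invol h1
    (mem_st4.2 (M4.mul ⟨hg.2, hg.1, hg.3, hg.4⟩ hg))
  exact ⟨_, hu, hg.mul (mem_st4.1 he)⟩

/-- An involution commuting with a double transposition and inducing a transposition. -/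
theorem exists_transp_comm (h1 : D4 a b c d) {t : G} (ht : t * t = 1) (hm : M4 t a b c d b a d c) :
    ∃ u : G, u * u = 1 ∧ M4 u a b c d b a c d ∧ t * u = u * t := by
  classical
  obtain ⟨g, -, hg⟩ := h.exists_transp h1
  have hti : t⁻¹ = t := inv_eq_of_mul_eq_one_right ht
  let f : st4 G a b c d → st4 G a b c d := fun e => ⟨g⁻¹ * (t * (g * e) * t), mem_st4.2
    (hg.inv.mul (M4.mul (M4.mul (⟨hm.1, hm.2, hm.4, hm.3⟩ : M4 t a b d c b a c d)
      (M4.mul (⟨hg.2, hg.1, hg.4, hg.3⟩ : M4 g b a d c a b d c)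
        (⟨(mem_st4.1 e.2).2, (mem_st4.1 e.2).1, (mem_st4.1 e.2).4, (mem_st4.1 e.2).3⟩ :
          M4 (e : G) b a d c b a d c))) hm))⟩
  have hf : Function.Involutive f := fun e => Subtype.ext (by
    change g⁻¹ * (t * (g * (g⁻¹ * (t * (g * e) * t))) * t) = e
    calc _ = g⁻¹ * (t * t) * g * e * (t * t) := by group
      _ = e := by rw [ht]; group)
  have := Fintype.ofFinite (st4 G a b c d)
  obtain ⟨e, he⟩ := Equiv.Perm.exists_fixed_point_of_prime (p := 2) (n := 1)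
    (σ := hf.toPerm) (by
      rw [← Nat.card_eq_fintype_card, ← even_iff_two_dvd, Nat.not_even_iff_odd]
      exact h.odd_card h1) (by ext x; simp [pow_two, hf x])
  have h2 : g⁻¹ * (t * (g * e) * t) = e := congrArg Subtype.val he
  have h3 : M4 (g * e) a b c d b a c d := hg.mul (mem_st4.1 e.2)
  obtain ⟨u, hu, ⟨e', he', rfl⟩, hc⟩ := h.exists_invol h1
    (mem_st4.2 (M4.mul ⟨h3.2, h3.1, h3.3, h3.4⟩ h3))
  refine ⟨_, hu, h3.mul (mem_st4.1 he'), hc t ?_⟩
  calc t * (g * e) = g * (g⁻¹ * (t * (g * e) * t)) * t⁻¹ := by group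
    _ = _ := by rw [h2, hti]

/-- A double transposition with two further fixed points. -/
theorem exists_double [Finite α] (h6 : 6 ≤ Nat.card α) (h1 : D4 a b c d) :
    ∃ (t : G) (z z' : α), t * t = 1 ∧ M4 t a b c d b a d c ∧ z ≠ z' ∧ t • z = z ∧ t • z' = z' ∧
      ∃ u γ : G, u * u = 1 ∧ M4 u a b c d b a c d ∧ t = γ * u * γ⁻¹ := by
  classical
  obtain ⟨u, hu, hm⟩ := h.exists_transp h1
  obtain ⟨x, hx, hux⟩ : ∃ x, x ∉ ({a, b, c, d} : Finset α) ∧ u • x ≠ x := by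
    by_contra hc
    push Not at hc
    have := Fintype.ofFinite α
    obtain ⟨x, hx, y, hy, hxy⟩ := (Finset.one_lt_card (s := ({a, b, c, d} : Finset α)ᶜ)).1 (by
      rw [Finset.card_compl, ← Nat.card_eq_fintype_card]
      have := Finset.card_le_four (a := a) (b := b) (c := c) (d := d)
      omega)
    rw [Finset.mem_compl] at hx hy
    have h2 := hc x hx
    have h3 := hc y hy
    simp only [Finset.mem_insert, Finset.mem_singleton, not_or] at hx hy
    have := h.odd u c d x y ⟨h1.cd, Ne.symm hx.2.2.1, Ne.symm hy.2.2.1, Ne.symm hx.2.2.2,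
      Ne.symm hy.2.2.2, hxy⟩ ⟨hm.3, hm.4, h2, h3⟩ hu
    exact h1.ab ((one_smul G a).symm.trans (this ▸ hm.1))
  simp only [Finset.mem_insert, Finset.mem_singleton, not_or] at hx
  have huu : ∀ y : α, u • u • y = y := fun y => by rw [← mul_smul, hu, one_smul]
  obtain ⟨γ, hγ⟩ := h.exists_map (⟨h1.ab, Ne.symm hx.1, fun e => hx.2.1 (by
    rw [← huu x, ← e, hm.1]), Ne.symm hx.2.1, fun e => hx.1 (by rw [← huu x, ← e, hm.2]),
    hux.symm⟩ : D4 a b x (u • x)) h1
  refine ⟨γ * u * γ⁻¹, γ • c, γ • d, conj_mul_self γ hu, ⟨?_, ?_, ?_, ?_⟩,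
    fun e => h1.cd (smul_left_cancel γ e), conj_smul_eq γ hm.3, conj_smul_eq γ hm.4,
    u, γ, hu, hm, rfl⟩
  · simpa only [hγ.1, hγ.2] using conj_smul_eq γ hm.1
  · simpa only [hγ.1, hγ.2] using conj_smul_eq γ hm.2
  · simpa only [hγ.3, hγ.4] using conj_smul_eq γ (rfl : u • x = _)
  · simpa only [hγ.3, hγ.4] using conj_smul_eq γ (huu x)

omit [Finite G] in
theorem fix_cases {t : G} (ht : t * t = 1) (hm : t • a ≠ a) {x y z w : α} (hxy : x ≠ y)
    (hxz : x ≠ z) (hyz : y ≠ z) (hx : t • x = x) (hy : t • y = y) (hz : t • z = z)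
    (hw : t • w = w) : w = x ∨ w = y ∨ w = z := by
  by_contra hc
  push Not at hc
  rw [h.odd t x y z w ⟨hxy, hxz, Ne.symm hc.1, hyz, Ne.symm hc.2.1, Ne.symm hc.2.2⟩
    ⟨hx, hy, hz, hw⟩ ht, one_smul] at hm
  exact hm rfl

omit [Finite G] in
/-- The final step: a commuting pair `t`, `u` and a point moved by `t`. -/
theorem regular_four (h1 : D4 a b c d) {t u : G} (ht : t * t = 1) (hu : u * u = 1)
    (hm : M4 t a b c d b a d c) (hm' : M4 u a b c d b a c d) (hc : t * u = u * t) {x : α}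
    (hx : x ≠ a ∧ x ≠ b ∧ x ≠ c ∧ x ≠ d) (htx : t • x ≠ x) :
    D4 x (t • x) (u • x) (t • u • x) ∧ M4 t x (t • x) (u • x) (t • u • x) (t • x) x (t • u • x) (u • x) ∧
      M4 u x (t • x) (u • x) (t • u • x) (u • x) (t • u • x) x (t • x) := by
  have htt : ∀ y : α, t • t • y = y := fun y => by rw [← mul_smul, ht, one_smul]
  have huu : ∀ y : α, u • u • y = y := fun y => by rw [← mul_smul, hu, one_smul]
  have htu : ∀ y : α, u • t • y = t • u • y := fun y => by rw [← mul_smul, ← hc, mul_smul]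
  have hne : ∀ {y z : α}, t • y = z → x ≠ z → t • x ≠ y := fun e h2 h3 => h2 (by
    rw [← e, ← h3, htt])
  have h2 : u • x ≠ x := fun e => by
    have := h.odd u c d x (t • x) ⟨h1.cd, Ne.symm hx.2.2.1, (hne hm.3 hx.2.2.2).symm,
      Ne.symm hx.2.2.2, (hne hm.4 hx.2.2.1).symm, htx.symm⟩ ⟨hm'.3, hm'.4, e, by rw [htu, e]⟩ hu
    exact h1.ab ((one_smul G a).symm.trans (this ▸ hm'.1))
  have h3 : t • u • x ≠ x := fun e => by
    have h4 := h.odd (t * u) a b x (t • x) ⟨h1.ab, Ne.symm hx.1, (hne hm.1 hx.2.1).symm,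
      Ne.symm hx.2.1, (hne hm.2 hx.1).symm, htx.symm⟩
      ⟨by rw [mul_smul, hm'.1, hm.2], by rw [mul_smul, hm'.2, hm.1], by rw [mul_smul, e],
        by rw [mul_smul, htu, e]⟩ (by
        calc t * u * (t * u) = t * (u * t) * u := by group
          _ = t * t * (u * u) := by rw [← hc]; group
          _ = 1 := by rw [ht, hu, one_mul])
    have h5 : (t * u) • c = d := by rw [mul_smul, hm'.3, hm.3]
    rw [h4, one_smul] at h5
    exact h1.cd h5
  refine ⟨⟨htx.symm, h2.symm, h3.symm, fun e => h3 (by rw [← e, htt]),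
    fun e => h2 (smul_left_cancel t e).symm, fun e => htx (smul_left_cancel u ?_)⟩,
    ⟨rfl, htt x, rfl, htt _⟩, ⟨rfl, htu x, huu x, by rw [htu, huu]⟩⟩
  rw [htu, ← e]

/-- Semiregular four-point stabilisers of odd order are trivial unless the degree is seven. -/
theorem card_le_seven [Finite α] (h6 : 6 ≤ Nat.card α)
    (h5 : ∀ (g : G) (a b c d x : α), D4 a b c d → M4 g a b c d a b c d →
      x ≠ a ∧ x ≠ b ∧ x ≠ c ∧ x ≠ d → g • x = x → g = 1)
    (h1 : D4 a b c d) {η : G} (hη : η ∈ st4 G a b c d) (hη1 : η ≠ 1) : Nat.card α ≤ 7 := by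
  classical
  have hinv : ∀ {a b c d : α} (t : G), t * t = 1 →
      (∀ e ∈ st4 G a b c d, t * e * t⁻¹ ∈ st4 G a b c d) →
      (∀ e ∈ st4 G a b c d, e * t = t * e → e = 1) → ∀ e ∈ st4 G a b c d, t * e * t⁻¹ = e⁻¹ :=
    fun t ht h2 h3 => conj_eq_inv_of_fpf _ t h2 (fun e _ => by rw [ht]; group)
      fun e he h4 => h3 e he (by rw [← mul_inv_eq_iff_eq_mul.1 h4])
  have hout : ∀ {a b c d z : α} {t : G}, D4 a b c d → M4 t a b c d b a d c → t • z = z →
      z ≠ a ∧ z ≠ b ∧ z ≠ c ∧ z ≠ d := fun h1 hm hz =>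
    ⟨by rintro rfl; exact h1.ab (hz.symm.trans hm.1), by rintro rfl; exact h1.ab (hm.2.symm.trans hz),
      by rintro rfl; exact h1.cd (hz.symm.trans hm.3), by rintro rfl; exact h1.cd (hm.4.symm.trans hz)⟩
  by_cases h3 : ∃ (u : G) (z : α), u * u = 1 ∧ M4 u a b c d b a c d ∧ z ≠ c ∧ z ≠ d ∧ u • z = z
  swap
  · -- involutions with two fixed points
    exfalso
    have key : ∀ a' b' c' d' : α, D4 a' b' c' d' → ∃ t : G, M4 t a' b' c' d' b' a' d' c' ∧
        ∀ e ∈ st4 G a' b' c' d', t * e * t⁻¹ = e⁻¹ := by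
      intro a' b' c' d' h2
      obtain ⟨t, z, z', ht, hm, hz, e1, e2, u, γ, hu, hmu, rfl⟩ := h.exists_double h6 h2
      refine ⟨_, hm, hinv _ ht (fun e he => mem_st4.2 (M4.mul (M4.mul hm (mem_st4.1 he))
        hm.inv |> fun h => ⟨h.2, h.1, h.4, h.3⟩)) fun e he hc => ?_⟩
      obtain ⟨δ, hδ⟩ := h.exists_map h2 h1
      have hfix : ∀ w : α, (γ * u * γ⁻¹) • w = w → w = γ • c' ∨ w = γ • d' := fun w hw => by
        by_contra hn
        push Not at hn
        refine h3 ⟨δ * u * δ⁻¹, δ • γ⁻¹ • w, conj_mul_self δ hu, ⟨?_, ?_, ?_, ?_⟩,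
          fun e => hn.1 ?_, fun e => hn.2 ?_, conj_smul_eq δ ?_⟩
        · simpa only [hδ.1, hδ.2] using conj_smul_eq δ hmu.1
        · simpa only [hδ.1, hδ.2] using conj_smul_eq δ hmu.2
        · simpa only [hδ.3] using conj_smul_eq δ hmu.3
        · simpa only [hδ.4] using conj_smul_eq δ hmu.4
        · rw [← smul_left_cancel δ (e.trans hδ.3.symm), smul_inv_smul]
        · rw [← smul_left_cancel δ (e.trans hδ.4.symm), smul_inv_smul]
        · rw [eq_inv_smul_iff, ← mul_smul, ← mul_smul, hw]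
      have f1 := conj_smul_eq γ hmu.3
      have f2 := conj_smul_eq γ hmu.4
      refine h.odd e _ _ _ _ h2 (mem_st4.1 he) (h5 _ _ _ _ _ _ h2
        ((mem_st4.1 he).mul (mem_st4.1 he)) (hout h2 hm f1) ?_)
      rw [mul_smul]
      rcases hfix _ (smul_fix_of_comm hc f1) with e3 | e3
      · rw [e3, e3]
      · rcases hfix _ (smul_fix_of_comm hc f2) with e4 | e4
        · rw [e3, e4]
        · exact absurd (smul_left_cancel γ (smul_left_cancel e (e3.trans e4.symm))) h2.cd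
    obtain ⟨t1, m1, i1⟩ := key a b c d h1
    obtain ⟨t2, m2, i2⟩ := key a c b d ⟨h1.ac, h1.ab, h1.ad, h1.bc.symm, h1.cd, h1.bd⟩
    obtain ⟨t3, m3, i3⟩ := key a d b c ⟨h1.ad, h1.ab, h1.ac, h1.bd.symm, h1.cd.symm, h1.bc⟩
    have hη' := mem_st4.1 hη
    have hηi := mem_st4.1 (Subgroup.inv_mem _ hη)
    have hm : t1 * t2 * t3 ∈ st4 G a b c d := mem_st4.2
      ⟨by rw [mul_smul, mul_smul, m3.1, m2.4, m1.2], by rw [mul_smul, mul_smul, m3.3, m2.2, m1.1],
        by rw [mul_smul, mul_smul, m3.4, m2.3, m1.4], by rw [mul_smul, mul_smul, m3.2, m2.1, m1.3]⟩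
    have e1 := comm_of_conj_eq_inv _ t1 i1 _ hm _ hη
    have e2 : t1 * t2 * t3 * η * (t1 * t2 * t3)⁻¹ = η⁻¹ := by
      calc _ = t1 * (t2 * (t3 * η * t3⁻¹) * t2⁻¹) * t1⁻¹ := by group
        _ = _ := by
          rw [i3 η (mem_st4.2 ⟨hη'.1, hη'.4, hη'.2, hη'.3⟩),
            i2 _ (mem_st4.2 ⟨hηi.1, hηi.3, hηi.2, hηi.4⟩), inv_inv, i1 η hη]
    rw [e1, mul_inv_cancel_right] at e2
    exact hη1 (h.odd η _ _ _ _ h1 hη' (by nth_rewrite 2 [e2]; exact mul_inv_cancel η))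
  obtain ⟨u₀, z₀, hu₀, hm₀, hz1, hz2, hz₀⟩ := h3
  have I : ∀ a' b' c' d' : α, D4 a' b' c' d' → ∃ u : G, M4 u a' b' c' d' b' a' c' d' ∧
      ∀ e ∈ st4 G a' b' c' d', u * e * u⁻¹ = e⁻¹ := by
    intro a' b' c' d' h2
    obtain ⟨δ, hδ⟩ := h.exists_map h1 h2
    have hm : M4 (δ * u₀ * δ⁻¹) a' b' c' d' b' a' c' d' := ⟨
      by simpa only [hδ.1, hδ.2] using conj_smul_eq δ hm₀.1,
      by simpa only [hδ.1, hδ.2] using conj_smul_eq δ hm₀.2,
      by simpa only [hδ.3] using conj_smul_eq δ hm₀.3,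
      by simpa only [hδ.4] using conj_smul_eq δ hm₀.4⟩
    refine ⟨_, hm, hinv _ (conj_mul_self δ hu₀) (fun e he => mem_st4.2 (M4.mul (M4.mul hm
      (mem_st4.1 he)) hm.inv |> fun h => ⟨h.2, h.1, h.3, h.4⟩))
      fun e he hc => ?_⟩
    have f1 := conj_smul_eq δ hz₀
    have n1 : δ • z₀ ≠ c' := fun e => hz1 (smul_left_cancel δ (e.trans hδ.3.symm))
    have n2 : δ • z₀ ≠ d' := fun e => hz2 (smul_left_cancel δ (e.trans hδ.4.symm))
    have he' := mem_st4.1 he
    refine h5 e _ _ _ _ (δ • z₀) h2 he' ⟨fun e => h2.ab ?_, fun e => h2.ab ?_, n1, n2⟩ ?_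
    · rw [← hm.1, ← e, f1]
    · rw [← hm.2, ← e, f1]
    · rcases h.fix_cases (conj_mul_self δ hu₀) (by rw [hm.1]; exact h2.ab.symm) h2.cd n1.symm n2.symm
        hm.3 hm.4 f1 (smul_fix_of_comm hc f1) with e3 | e3 | e3
      · exact absurd (smul_left_cancel e (e3.trans he'.3.symm)) n1
      · exact absurd (smul_left_cancel e (e3.trans he'.4.symm)) n2
      · exact e3
  have II : ∀ (a' b' c' d' : α) (t : G), D4 a' b' c' d' → M4 t a' b' c' d' b' a' d' c' →
      ∀ e ∈ st4 G a' b' c' d', e * t = t * e := by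
    intro a' b' c' d' t h2 hm e he
    obtain ⟨u, m1, i1⟩ := I a' b' c' d' h2
    obtain ⟨v, m2, i2⟩ := I c' d' a' b' ⟨h2.cd, h2.ac.symm, h2.bc.symm, h2.ad.symm, h2.bd.symm, h2.ab⟩
    have he' := mem_st4.1 he
    have hk : u * v * t ∈ st4 G a' b' c' d' := mem_st4.2
      ⟨by rw [mul_smul, mul_smul, hm.1, m2.4, m1.2], by rw [mul_smul, mul_smul, hm.2, m2.3, m1.1],
        by rw [mul_smul, mul_smul, hm.3, m2.2, m1.3], by rw [mul_smul, mul_smul, hm.4, m2.1, m1.4]⟩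
    have e1 := comm_of_conj_eq_inv _ u i1 _ hk _ he
    have e2 : u * v * e * (u * v)⁻¹ = e := by
      calc _ = u * (v * e * v⁻¹) * u⁻¹ := by group
        _ = e := by
          rw [i2 e (mem_st4.2 ⟨he'.3, he'.4, he'.1, he'.2⟩), i1 _ (Subgroup.inv_mem _ he), inv_inv]
    calc e * t = (u * v)⁻¹ * (u * v * e * (u * v)⁻¹) * (u * v * t) := by group
      _ = (u * v)⁻¹ * (e * (u * v * t)) := by rw [e2]; group
      _ = t * e := by rw [← e1]; group
  have III : ∀ (a' b' c' d' z : α) (t : G), D4 a' b' c' d' → t * t = 1 →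
      M4 t a' b' c' d' b' a' d' c' → t • z = z → ∃ e ∈ st4 G a' b' c' d', ∀ w : α, t • w = w →
        w = z ∨ w = e • z ∨ w = (e * e) • z := by
    intro a' b' c' d' z t h2 ht hm hz
    obtain ⟨δ, hδ⟩ := h.exists_map h1 h2
    have he : δ * η * δ⁻¹ ∈ st4 G a' b' c' d' :=
      mem_st4.2 ((hδ.mul (mem_st4.1 hη)).mul hδ.inv)
    have he1 : δ * η * δ⁻¹ ≠ 1 := fun e => hη1 (conj_eq_one_iff.1 e)
    generalize δ * η * δ⁻¹ = e at he he1
    have he' := mem_st4.1 he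
    have n1 : e • z ≠ z := fun e1 => he1 (h5 e _ _ _ _ z h2 he' (hout h2 hm hz) e1)
    have n2 : (e * e) • z ≠ z := fun e1 => he1 (h.odd e _ _ _ _ h2 he'
      (h5 _ _ _ _ _ z h2 (he'.mul he') (hout h2 hm hz) e1))
    have f1 := smul_fix_of_comm (II _ _ _ _ t h2 hm e he) hz
    refine ⟨e, he, fun w hw => h.fix_cases ht (by rw [hm.1]; exact h2.ab.symm) n1.symm n2.symm
      (fun e1 => n1 (smul_left_cancel e (by rw [← mul_smul, ← e1]))) hz f1 ?_ hw⟩
    rw [mul_smul]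
    exact smul_fix_of_comm (II _ _ _ _ t h2 hm e he) f1
  obtain ⟨t, z, z', ht, hm, hz, e1, e2, -⟩ := h.exists_double h6 h1
  obtain ⟨u, hu, hmu, hc⟩ := h.exists_transp_comm h1 ht hm
  obtain ⟨e, -, he⟩ := III _ _ _ _ z t h1 ht hm e1
  have := Fintype.ofFinite α
  rw [Nat.card_eq_fintype_card, ← Finset.card_univ]
  refine (Finset.card_le_card (t := {a, b, c, d} ∪ {z, e • z, (e * e) • z}) fun x _ => ?_).trans
    ((Finset.card_union_le _ _).trans (add_le_add Finset.card_le_four Finset.card_le_three))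
  by_contra hx
  simp only [Finset.mem_union, Finset.mem_insert, Finset.mem_singleton, not_or] at hx
  obtain ⟨d4, mt, mu⟩ := h.regular_four h1 ht hu hm hmu hc hx.1 fun e3 => by
    have := he x e3
    tauto
  have hfix : ∀ w : α, t • w = w → u • w = w := fun w hw => by
    obtain ⟨e', he', h7⟩ := III _ _ _ _ w t d4 ht mt hw
    have hm' := mem_st4.1 he'
    have hcu := II x (u • x) (t • x) (t • u • x) u ⟨d4.ac, d4.ab, d4.ad, d4.bc.symm, d4.cd, d4.bd⟩
      ⟨mu.1, mu.3, mu.2, mu.4⟩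
    have key : ∀ f ∈ st4 G x (t • x) (u • x) (t • u • x), u • w = f • w → u • w = w := by
      intro f hf e3
      have hf' := mem_st4.1 hf
      have : f = 1 := h.odd f _ _ _ _ d4 hf' (h5 _ _ _ _ _ w d4 (hf'.mul hf') (hout d4 mt hw) (by
        rw [mul_smul, ← e3, ← mul_smul, hcu f (mem_st4.2 ⟨hf'.1, hf'.3, hf'.2, hf'.4⟩), mul_smul,
          ← e3, ← mul_smul, hu, one_smul]))
      rw [e3, this, one_smul]
    rcases h7 _ (smul_fix_of_comm hc.symm hw) with e3 | e3 | e3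
    · exact e3
    · exact key _ he' e3
    · exact key _ (Subgroup.mul_mem _ he' he') e3
  have o1 := hout h1 hm e1
  have o2 := hout h1 hm e2
  have := h.odd u c d z z' ⟨h1.cd, o1.2.2.1.symm, o2.2.2.1.symm, o1.2.2.2.symm, o2.2.2.2.symm, hz⟩
    ⟨hmu.3, hmu.4, hfix z e1, hfix z' e2⟩ hu
  exact h1.ab ((one_smul G a).symm.trans (this ▸ hmu.1))

end Q4

end H27
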