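import Mathlib
import Cfsg.Agent.Base
import Cfsg.Agent.Lib.Perm27.Homog
import Cfsg.Agent.Lib.Perm27.Hall4
import Cfsg.Agent.Lib.Design.Sharp

/-! The group induced on a finite subset by its setwise stabiliser. -/

set_option autoImplicit false

open MulAction
open scoped Pointwise

namespace H27

open H17

variable {G α : Type*} [Group G] [MulAction G α]

/-- The permutations of `Δ` induced by elements of `G`. -/
def Ind (G : Type*) [Group G] [MulAction G α] (Δ : Finset α) : Subgroup (Equiv.Perm Δ) where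
  carrier := {σ | ∃ g : G, ∀ x : Δ, g • (x : α) = σ x}
  one_mem' := ⟨1, fun x => one_smul _ _⟩
  mul_mem' := by
    rintro σ τ ⟨g, hg⟩ ⟨k, hk⟩
    exact ⟨g * k, fun x => by rw [mul_smul, hk, hg]; rfl⟩
  inv_mem' := by
    rintro σ ⟨g, hg⟩
    exact ⟨g⁻¹, fun x => by rw [inv_smul_eq_iff, hg]; simp⟩

theorem mem_Ind {Δ : Finset α} {σ : Equiv.Perm Δ} :
    σ ∈ Ind G Δ ↔ ∃ g : G, ∀ x : Δ, g • (x : α) = σ x := Iff.rfl

variable [DecidableEq α]

theorem swap_mem_Ind {Δ : Finset α} {x y : Δ} {g : G} (h1 : g • (x : α) = y) (h2 : g • (y : α) = x)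
    (h3 : ∀ z ∈ Δ, z ≠ x → z ≠ y → g • z = z) : Equiv.swap x y ∈ Ind G Δ := by
  refine ⟨g, fun z => ?_⟩
  by_cases e1 : z = x
  · rw [e1, Equiv.swap_apply_left, h1]
  by_cases e2 : z = y
  · rw [e2, Equiv.swap_apply_right, h2]
  rw [Equiv.swap_apply_of_ne_of_ne e1 e2]
  exact h3 z z.2 (fun e => e1 (Subtype.ext e)) fun e => e2 (Subtype.ext e)

theorem Ind_eq_top_of_swap {Δ : Finset α}
    (h : ∀ x ∈ Δ, ∀ y ∈ Δ, x ≠ y →
      ∃ g : G, g • x = y ∧ g • y = x ∧ ∀ z ∈ Δ, z ≠ x → z ≠ y → g • z = z) : Ind G Δ = ⊤ := by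
  rw [eq_top_iff, ← Equiv.Perm.closure_isSwap, Subgroup.closure_le]
  rintro _ ⟨x, y, hxy, rfl⟩
  obtain ⟨g, h1, h2, h3⟩ := h x x.2 y y.2 fun e => hxy (Subtype.ext e)
  exact swap_mem_Ind h1 h2 h3

theorem Ind_eq_top_of_odd {Δ : Finset α} (h : alternatingGroup Δ ≤ Ind G Δ) {σ : Equiv.Perm Δ}
    (hσ : σ ∈ Ind G Δ) (hs : Equiv.Perm.sign σ = -1) : Ind G Δ = ⊤ := by
  refine eq_top_iff.2 fun τ _ => ?_
  rcases Int.units_eq_one_or (Equiv.Perm.sign τ) with e | e
  · exact h e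
  · have := (Ind G Δ).mul_mem (h (show τ * σ⁻¹ ∈ alternatingGroup Δ by simp [e, hs])) hσ
    simpa using this

theorem exists_Ind_equiv {Δ Δ' : Finset α} {g : G} (hg : g • Δ = Δ') :
    ∃ e : Δ' ≃ Δ, ∀ σ, e.permCongr σ ∈ Ind G Δ → σ ∈ Ind G Δ' := by
  subst hg
  refine ⟨⟨fun y => ⟨g⁻¹ • y, Finset.inv_smul_mem_iff.2 y.2⟩,
    fun x => ⟨g • x, Finset.smul_mem_smul_finset x.2⟩, fun x => by simp, fun x => by simp⟩, ?_⟩
  rintro σ ⟨k, hk⟩
  refine ⟨g * k * g⁻¹, fun x => ?_⟩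
  have := hk ⟨g⁻¹ • x, Finset.inv_smul_mem_iff.2 x.2⟩
  simp only [Equiv.permCongr_apply, Equiv.coe_fn_symm_mk, Equiv.coe_fn_mk, smul_inv_smul] at this
  rw [mul_smul, mul_smul, this, smul_inv_smul]

theorem Ind_top_smul {Δ Δ' : Finset α} {g : G} (hg : g • Δ = Δ') (h : Ind G Δ = ⊤) :
    Ind G Δ' = ⊤ := by
  obtain ⟨e, he⟩ := exists_Ind_equiv hg
  exact eq_top_iff.2 fun τ _ => he τ (h ▸ Subgroup.mem_top _)

theorem alt_le_Ind_smul {Δ Δ' : Finset α} {g : G} (hg : g • Δ = Δ')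
    (h : alternatingGroup Δ ≤ Ind G Δ) : alternatingGroup Δ' ≤ Ind G Δ' := by
  obtain ⟨e, he⟩ := exists_Ind_equiv hg
  exact fun τ hτ => he τ (h (by
    rw [Equiv.Perm.mem_alternatingGroup, Equiv.Perm.sign_permCongr]; exact hτ))

theorem Homog.multi_of_Ind {k : ℕ} (hh : Homog G α k) {Δ : Finset α} (hΔ : Δ.card = k)
    (h : Ind G Δ = ⊤) : IsMultiplyPretransitive G α k := by
  refine isMultiplyPretransitive_of_injOn fun T hT f hf => ?_
  have hc : (T.image f).card = k := by rw [Finset.card_image_of_injOn hf, hT]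
  obtain ⟨g, hg⟩ := hh T _ hT hc
  obtain ⟨g', hg'⟩ := hh Δ T hΔ hT
  let φ : T → T := fun x => ⟨g⁻¹ • f x, Finset.inv_smul_mem_iff.2 (hg ▸ Finset.mem_image_of_mem f x.2)⟩
  have hφ : Function.Injective φ := fun x y e =>
    Subtype.ext (hf x.2 y.2 (smul_left_cancel _ (congrArg Subtype.val e)))
  obtain ⟨k, hk⟩ : Equiv.ofBijective φ (Finite.injective_iff_bijective.1 hφ) ∈ Ind G T :=
    Ind_top_smul hg' h ▸ Subgroup.mem_top _
  exact ⟨g * k, fun a ha => by rw [mul_smul, hk ⟨a, ha⟩]; simp [φ]⟩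

omit [DecidableEq α] in
theorem Ind_eq_top_of_multi {k : ℕ} (ht : IsMultiplyPretransitive G α k) {Δ : Finset α}
    (hΔ : Δ.card = k) : Ind G Δ = ⊤ := by
  refine eq_top_iff.2 fun σ _ => ?_
  obtain ⟨g, hg⟩ := H26.multi_fintype ht (ι := Δ) (by simpa using hΔ) Subtype.val
    (fun x => σ x) Subtype.val_injective (Subtype.val_injective.comp σ.injective)
  exact ⟨g, hg⟩

omit [DecidableEq α] in
/-- conjugating a pointwise stabiliser -/
theorem exists_conj_fix {k : ℕ} (ht : IsMultiplyPretransitive G α k) {S S' : Finset α}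
    (hS : S.card = k) (hS' : S'.card = k) :
    ∃ γ : G, ∀ g : G, (∀ a ∈ S, g • a = a) → ∀ a ∈ S', (γ * g * γ⁻¹) • a = a := by
  obtain ⟨γ, hγ⟩ := H26.multi_fintype ht (ι := S') (by simpa using hS')
    (fun x => (Finset.equivOfCardEq (hS'.trans hS.symm) x : α)) Subtype.val
    (Subtype.val_injective.comp (Equiv.injective _)) Subtype.val_injective
  refine ⟨γ, fun g hg a ha => ?_⟩
  have := hγ ⟨a, ha⟩
  rw [← show γ • _ = a from this]
  exact conj_smul_eq γ (hg _ (Finset.coe_mem _))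

/-- If an involution fixes `k + 1` points then all transpositions are induced on `(k+2)`-sets. -/
theorem Ind_eq_top_of_invol [Finite α] {k : ℕ} (ht : IsMultiplyPretransitive G α (k + 1))
    (hf : FixTriv G α (k + 2)) {t : G} (ht1 : t ≠ 1) (ht2 : t * t = 1) {S : Finset α}
    (hS : S.card = k + 1) (htS : ∀ a ∈ S, t • a = a) {Δ : Finset α} (hΔ : Δ.card = k + 2) :
    Ind G Δ = ⊤ := by
  refine Ind_eq_top_of_swap fun x hx y hy hxy => ?_
  let R := (Δ.erase x).erase y
  have hR : R.card = k := by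
    rw [Finset.card_erase_of_mem (Finset.mem_erase.2 ⟨hxy.symm, hy⟩), Finset.card_erase_of_mem hx, hΔ]
    rfl
  have hxR : x ∉ R := by simp [R]
  have hyR : y ∉ R := by simp [R]
  have h1 : ∀ z : {z // z ∉ R ∧ z ≠ x}, ∃ u : G, u ≠ 1 ∧ u * u = 1 ∧ ∀ a ∈ insert z.1 R, u • a = a := by
    intro z
    obtain ⟨γ, hγ⟩ := exists_conj_fix ht hS (S' := insert z.1 R)
      (by rw [Finset.card_insert_of_notMem z.2.1, hR])
    exact ⟨_, fun e => ht1 (conj_eq_one_iff.1 e), conj_mul_self γ ht2, hγ t htS⟩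
  choose u hu1 hu2 hu using h1
  have huu : ∀ z (w : α), u z • u z • w = w := fun z w => by rw [← mul_smul, hu2, one_smul]
  have hc : ∀ {v w : α}, v ∉ R → w ∉ R → v ≠ w → k + 2 ≤ (insert v (insert w R)).card :=
    fun hv hw hvw => by
      rw [Finset.card_insert_of_notMem (by simp [hv, hvw]), Finset.card_insert_of_notMem hw, hR]
  let f : {z // z ∉ R ∧ z ≠ x} → {z // z ∉ R ∧ z ≠ x} := fun z => ⟨u z • x, fun e => hxR (by
      rw [← huu z x, hu z _ (Finset.mem_insert_of_mem e)]; exact e), fun e => hu1 z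
      (hf.eq_one _ _ (hc hxR z.2.1 z.2.2.symm) fun a ha => by
        rcases Finset.mem_insert.1 ha with rfl | ha
        · exact e
        · exact hu z a ha)⟩
  have hinj : Function.Injective f := by
    intro z z' e
    have e' : u z • x = u z' • x := congrArg Subtype.val e
    have h2 : u z * u z' = 1 := hf.eq_one _ _ (hc hxR (f z).2.1 (f z).2.2.symm) fun a ha => by
      simp only [Finset.mem_insert] at ha
      rcases ha with rfl | rfl | ha
      · rw [mul_smul, ← e', huu]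
      · change (u z * u z') • u z • x = u z • x
        rw [mul_smul, e', huu, e']
      · rw [mul_smul, hu z' a (Finset.mem_insert_of_mem ha), hu z a (Finset.mem_insert_of_mem ha)]
    have h3 : u z' = u z := by
      rw [eq_inv_of_mul_eq_one_right h2, ← eq_inv_of_mul_eq_one_right (hu2 z)]
    by_contra hne
    refine hu1 z (hf.eq_one _ _ (hc z'.2.1 z.2.1 fun e => hne (Subtype.ext e.symm)) fun a ha => ?_)
    rcases Finset.mem_insert.1 ha with rfl | ha
    · rw [← h3]; exact hu z' _ (Finset.mem_insert_self _ _)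
    · exact hu z a ha
  obtain ⟨z, hz⟩ := Finite.injective_iff_surjective.1 hinj ⟨y, hyR, hxy.symm⟩
  have hz' : u z • x = y := congrArg Subtype.val hz
  exact ⟨u z, hz', by rw [← hz', huu], fun w hw h1 h2 =>
    hu z w (Finset.mem_insert_of_mem (by simp [R, hw, h1, h2]))⟩

omit [DecidableEq α] in
theorem card_ofFixing [Finite α] (R : Finset α) :
    Nat.card (SubMulAction.ofFixingSubgroup G (R : Set α)) + R.card = Nat.card α := by
  rw [← Set.ncard_coe_finset, add_comm, ← Set.ncard_add_ncard_compl (R : Set α)]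
  rfl

/-- the finite set made of `R` and further points outside -/
theorem card_union_map (R : Finset α) (s : Finset (SubMulAction.ofFixingSubgroup G (R : Set α))) :
    (R ∪ s.map (Function.Embedding.subtype _)).card = R.card + s.card := by
  rw [Finset.card_union_of_disjoint, Finset.card_map]
  refine Finset.disjoint_right.2 fun a ha => ?_
  obtain ⟨x, -, rfl⟩ := Finset.mem_map.1 ha
  exact x.2

theorem fix_union_map {R : Finset α} {s : Finset (SubMulAction.ofFixingSubgroup G (R : Set α))}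
    {g : fixingSubgroup G (R : Set α)} (h : ∀ x ∈ s, g • x = x) :
    ∀ a ∈ R ∪ s.map (Function.Embedding.subtype _), (g : G) • a = a := fun a ha => by
  rcases Finset.mem_union.1 ha with ha | ha
  · exact g.2 ⟨a, ha⟩
  · obtain ⟨x, hx, rfl⟩ := Finset.mem_map.1 ha
    exact congrArg Subtype.val (h x hx)

theorem D4.card_eq {a b c d : α} (h : D4 a b c d) : ({a, b, c, d} : Finset α).card = 4 :=
  Finset.card_eq_four.2 ⟨a, b, c, d, h.1, h.2, h.3, h.4, h.5, h.6, rfl⟩

theorem Q4_fixing {k : ℕ} (ht : IsMultiplyPretransitive G α (k + 4))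
    (ho : ∀ (g : G) (S : Finset α), S.card = k + 4 → (∀ a ∈ S, g • a = a) → g * g = 1 → g = 1)
    {R : Finset α} (hR : R.card = k) :
    Q4 (fixingSubgroup G (R : Set α)) (SubMulAction.ofFixingSubgroup G (R : Set α)) := by
  refine ⟨SubMulAction.ofFixingSubgroup.isMultiplyPretransitive G (n := k + 4) _ (by simp [hR]),
    fun g a b c d h1 hm h2 => Subtype.ext (ho g _ ?_ (fix_union_map (s := {a, b, c, d}) ?_)
      (congrArg Subtype.val h2))⟩
  · rw [card_union_map, hR, h1.card_eq]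
  · simp [hm.1, hm.2, hm.3, hm.4]

/-- Hall's lemma for `(k+4)`-transitive groups. -/
theorem card_le_add_seven [Finite G] [Finite α] {k : ℕ} (ht : IsMultiplyPretransitive G α (k + 4))
    (ho : ∀ (g : G) (S : Finset α), S.card = k + 4 → (∀ a ∈ S, g • a = a) → g * g = 1 → g = 1)
    (hf : FixTriv G α (k + 5)) (h6 : k + 6 ≤ Nat.card α) {η : G} (hη : η ≠ 1) {S : Finset α}
    (hS : S.card = k + 4) (hηS : ∀ a ∈ S, η • a = a) : Nat.card α ≤ k + 7 := by
  obtain ⟨T, hTS, hT⟩ := Finset.exists_subset_card_eq (s := S) (n := 4) (by omega)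
  obtain ⟨a, b, c, d, ab, ac, ad, bc, bd, cd, rfl⟩ := Finset.card_eq_four.1 hT
  have hR : (S \ {a, b, c, d}).card = k := by rw [Finset.card_sdiff_of_subset hTS, hT, hS]; rfl
  have hc := card_ofFixing (G := G) (S \ {a, b, c, d})
  have hm : ∀ x ∈ ({a, b, c, d} : Finset α),
      x ∈ SubMulAction.ofFixingSubgroup G ((S \ {a, b, c, d} : Finset α) : Set α) :=
    fun x hx h => (Finset.mem_sdiff.1 h).2 hx
  have := (Q4_fixing ht ho hR).card_le_seven (by omega) (a := ⟨a, hm a (by simp)⟩)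
    (b := ⟨b, hm b (by simp)⟩) (c := ⟨c, hm c (by simp)⟩) (d := ⟨d, hm d (by simp)⟩)
    (η := ⟨η, fun x => hηS _ (Finset.mem_sdiff.1 x.2).1⟩)
    (fun g a b c d x h1 hm hx hgx => Subtype.ext (hf.eq_one g _ ?_
      (fix_union_map (s := {x, a, b, c, d}) ?_)))
    ⟨fun e => ab (congrArg Subtype.val e), fun e => ac (congrArg Subtype.val e),
      fun e => ad (congrArg Subtype.val e), fun e => bc (congrArg Subtype.val e),
      fun e => bd (congrArg Subtype.val e), fun e => cd (congrArg Subtype.val e)⟩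
    (mem_st4.2 ⟨Subtype.ext (hηS _ (hTS (by simp))), Subtype.ext (hηS _ (hTS (by simp))),
      Subtype.ext (hηS _ (hTS (by simp))), Subtype.ext (hηS _ (hTS (by simp)))⟩)
    (fun e => hη (congrArg Subtype.val e))
  · omega
  · rw [card_union_map, hR, Finset.card_insert_of_notMem (by simp [hx]), h1.card_eq]
  · simp [hm.1, hm.2, hm.3, hm.4, hgx]

omit [DecidableEq α] in
theorem sharp_degree [Fintype α] {k : ℕ} (ht : IsMultiplyPretransitive G α (k + 4))
    (hf : FixTriv G α (k + 4)) (hk : k + 4 ≤ Fintype.card α) :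
    Fintype.card α ≤ k + 6 ∨ (Fintype.card α = k + 11 ∧ k ≤ 1) := by
  rcases k with _ | _ | k
  · have := sharp4_degree ht hf hk; omega
  · have := sharp5_degree ht hf hk; omega
  · have := sharp_large_degree k ht hf hk; omega

theorem Ind_eq_top_of_swap_base {Δ : Finset α} {p : α} (hp : p ∈ Δ)
    (h : ∀ y ∈ Δ, y ≠ p →
      ∃ g : G, g • p = y ∧ g • y = p ∧ ∀ z ∈ Δ, z ≠ p → z ≠ y → g • z = z) : Ind G Δ = ⊤ := by
  have key : ∀ y : Δ, y ≠ ⟨p, hp⟩ → Equiv.swap ⟨p, hp⟩ y ∈ Ind G Δ := fun y hy => by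
    obtain ⟨g, h1, h2, h3⟩ := h y y.2 fun e => hy (Subtype.ext e)
    exact swap_mem_Ind h1 h2 h3
  rw [eq_top_iff, ← Equiv.Perm.closure_isSwap, Subgroup.closure_le]
  rintro _ ⟨x, y, hxy, rfl⟩
  by_cases hx : x = ⟨p, hp⟩
  · exact hx ▸ key y (hx ▸ hxy.symm)
  by_cases hy : y = ⟨p, hp⟩
  · rw [Equiv.swap_comm, hy]; exact key x hx
  rw [← Equiv.swap_mul_swap_mul_swap hy hxy.symm, Equiv.swap_comm y]
  exact mul_mem (mul_mem (key x hx) (key y hy)) (key x hx)

/-- A three-cycle induced on `Δ`. -/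
structure Cyc (G : Type*) [Group G] [MulAction G α] (Δ : Finset α) (b c d : α) : Prop where
  hb : b ∈ Δ
  hc : c ∈ Δ
  hd : d ∈ Δ
  bc : b ≠ c
  bd : b ≠ d
  cd : c ≠ d
  ex : ∃ g : G, g • b = c ∧ g • c = d ∧ g • d = b ∧ ∀ z ∈ Δ, z ≠ b → z ≠ c → z ≠ d → g • z = z

omit [DecidableEq α] in
theorem Cyc.rot {Δ : Finset α} {b c d : α} (h : Cyc G Δ b c d) : Cyc G Δ c d b := by
  obtain ⟨g, h1, h2, h3, h4⟩ := h.ex
  exact ⟨h.hc, h.hd, h.hb, h.cd, h.bc.symm, h.bd.symm, g, h2, h3, h1, fun z hz a b c => h4 z hz c a b⟩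

section
variable [Fintype α] {m : ℕ} (ht : IsMultiplyPretransitive G α (m + 4)) (hf : FixTriv G α (m + 4))
  (hn : Fintype.card α = m + 11)
include hf hn

theorem Cyc.card_fix {Δ : Finset α} (hΔ : m + 4 ≤ Δ.card) {b c d : α} (h : Cyc G Δ b c d) {g : G}
    (h1 : g • b = c) (h2 : g • c = d) (h3 : g • d = b)
    (h4 : ∀ z ∈ Δ, z ≠ b → z ≠ c → z ≠ d → g • z = z) :
    (((Δ.erase b).erase c).erase d) ⊆ Finset.univ.filter (fun x : α => g • x = x) ∧
      (((Δ.erase b).erase c).erase d).card + 3 = Δ.card ∧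
      (Finset.univ.filter fun x : α => g • x = x).card = m + 2 := by
  have e1 : (((Δ.erase b).erase c).erase d) ⊆ Finset.univ.filter (fun x : α => g • x = x) :=
    fun z hz => by
      simp only [Finset.mem_erase] at hz
      simpa using h4 z hz.2.2.2 hz.2.2.1 hz.2.1 hz.1
  have e2 : (((Δ.erase b).erase c).erase d).card + 3 = Δ.card := by
    rw [Finset.card_erase_of_mem (by simp [h.hd, h.bd.symm, h.cd.symm]),
      Finset.card_erase_of_mem (by simp [h.hc, h.bc.symm]), Finset.card_erase_of_mem h.hb]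
    omega
  refine ⟨e1, e2, ?_⟩
  have e3 : g ^ 3 ^ 1 = 1 := hf.eq_one _ Δ hΔ fun z hz => by
    rw [pow_one, pow_succ, pow_two, mul_smul, mul_smul]
    by_cases a1 : z = b
    · rw [a1, h1, h2, h3]
    by_cases a2 : z = c
    · rw [a2, h2, h3, h1]
    by_cases a3 : z = d
    · rw [a3, h3, h1, h2]
    rw [h4 z hz a1 a2 a3, h4 z hz a1 a2 a3, h4 z hz a1 a2 a3]
  have e4 := card_fixedBy_modEq (Ω := α) Nat.prime_three e3
  have e5 : Nat.card (fixedBy α g) = (Finset.univ.filter fun x : α => g • x = x).card :=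
    Nat.subtype_card _ fun x => by simp
  have e6 : (Finset.univ.filter fun x : α => g • x = x).card < m + 4 := by
    by_contra hc
    rw [hf.eq_one g _ (not_lt.1 hc) fun a ha => by simpa using ha, one_smul] at h1
    exact h.bc h1
  have e7 := Finset.card_le_card e1
  rw [e5, Nat.card_eq_fintype_card, hn, Nat.ModEq] at e4
  omega

include ht

theorem Cyc.exists_swap {Δ : Finset α} (hΔ : Δ.card = m + 5) {b c d : α} (h : Cyc G Δ b c d) :
    ∃ u : G, u • c = d ∧ u • d = c ∧ ∀ z ∈ Δ, z ≠ c → z ≠ d → u • z = z := by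
  obtain ⟨g, h1, h2, h3, h4⟩ := h.ex
  obtain ⟨e1, e2, e3⟩ := h.card_fix hf hn (by omega) h1 h2 h3 h4
  have e4 := Finset.eq_of_subset_of_card_le e1 (by omega)
  obtain ⟨y, hy⟩ : (((Δ.erase b).erase c).erase d).Nonempty := Finset.card_pos.1 (by omega)
  have hy' := hy
  simp only [Finset.mem_erase] at hy'
  have hT : (Δ.erase y).card = m + 4 := by rw [Finset.card_erase_of_mem hy'.2.2.2, hΔ]; rfl
  obtain ⟨u, hu⟩ := exists_smul_eq_of_injOn_card_eq ht _ hT (Equiv.swap c d)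
    (Equiv.injective _).injOn
  have u1 : u • c = d := by rw [hu c (by simp [h.hc, Ne.symm hy'.2.1]), Equiv.swap_apply_left]
  have u2 : u • d = c := by rw [hu d (by simp [h.hd, Ne.symm hy'.1]), Equiv.swap_apply_right]
  have u3 : ∀ z ∈ Δ.erase y, z ≠ c → z ≠ d → u • z = z := fun z hz a1 a2 => by
    rw [hu z hz, Equiv.swap_apply_of_ne_of_ne a1 a2]
  have u4 : u • b = b := u3 b (by simp [h.hb, Ne.symm hy'.2.2.1]) h.bc h.bd
  have e5 : u * g * u * g = 1 := hf.eq_one _ _ hT.ge fun z hz => by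
    simp only [mul_smul]
    by_cases a1 : z = b
    · rw [a1, h1, u1, h3, u4]
    by_cases a2 : z = c
    · rw [a2, h2, u2, h2, u2]
    by_cases a3 : z = d
    · rw [a3, h3, u4, h1, u1]
    have := h4 z (Finset.mem_of_mem_erase hz) a1 a2 a3
    rw [this, u3 z hz a2 a3, this, u3 z hz a2 a3]
  have e6 : u * u = 1 := hf.eq_one _ _ hT.ge fun z hz => by
    simp only [mul_smul]
    by_cases a2 : z = c
    · rw [a2, u1, u2]
    by_cases a3 : z = d
    · rw [a3, u2, u1]
    rw [u3 z hz a2 a3, u3 z hz a2 a3]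
  have hgy : g • y = y := h4 y hy'.2.2.2 hy'.2.2.1 hy'.2.1 hy'.1
  have e7 : u • y ∈ ((Δ.erase b).erase c).erase d := by
    rw [e4, Finset.mem_filter]
    refine ⟨Finset.mem_univ _, smul_left_cancel u ?_⟩
    rw [← mul_smul u u, e6]
    nth_rewrite 1 [← hgy]
    simp only [← mul_smul, ← mul_assoc, e5]
  refine ⟨u, u1, u2, fun z hz a1 a2 => ?_⟩
  by_cases a3 : z = y
  · subst a3
    by_contra hne
    simp only [Finset.mem_erase] at e7
    exact hne (smul_left_cancel u (u3 _ (Finset.mem_erase.2 ⟨hne, e7.2.2.2⟩) e7.2.1 e7.1))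
  · exact u3 z (Finset.mem_erase.2 ⟨a3, hz⟩) a1 a2

theorem exists_cyc {Δ : Finset α} (hΔ : Δ.card = m + 4) {b c d : α} (hb : b ∈ Δ) (hc : c ∈ Δ)
    (hd : d ∈ Δ) (bc : b ≠ c) (bd : b ≠ d) (cd : c ≠ d) : ∃ y ∉ Δ, Cyc G (insert y Δ) b c d := by
  obtain ⟨g, hg⟩ := exists_smul_eq_of_injOn_card_eq ht _ hΔ (Equiv.swap b d * Equiv.swap b c)
    (Equiv.injective _).injOn
  have h1 : g • b = c := by simp [hg b hb, Equiv.swap_apply_of_ne_of_ne bc.symm cd]
  have h2 : g • c = d := by simp [hg c hc]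
  have h3 : g • d = b := by simp [hg d hd, Equiv.swap_apply_of_ne_of_ne bd.symm cd.symm]
  have h4 : ∀ z ∈ Δ, z ≠ b → z ≠ c → z ≠ d → g • z = z := fun z hz a1 a2 a3 => by
    simp [hg z hz, Equiv.swap_apply_of_ne_of_ne a1 a2, Equiv.swap_apply_of_ne_of_ne a1 a3]
  obtain ⟨e1, e2, e3⟩ := Cyc.card_fix hf hn hΔ.ge ⟨hb, hc, hd, bc, bd, cd, g, h1, h2, h3, h4⟩
    h1 h2 h3 h4
  obtain ⟨y, hy1, hy2⟩ := Finset.exists_mem_notMem_of_card_lt_card (show _ < _ by omega :
    (((Δ.erase b).erase c).erase d).card < (Finset.univ.filter fun x : α => g • x = x).card)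
  have hy : g • y = y := by simpa using hy1
  refine ⟨y, fun hyΔ => hy2 ?_, by simp [hb], by simp [hc], by simp [hd], bc, bd, cd, g, h1, h2, h3,
    fun z hz a1 a2 a3 => ?_⟩
  · simp only [Finset.mem_erase]
    exact ⟨by rintro rfl; exact bd (h3.symm.trans hy), by rintro rfl; exact cd (hy.symm.trans h2),
      by rintro rfl; exact bc (hy.symm.trans h1), hyΔ⟩
  · rcases Finset.mem_insert.1 hz with rfl | hz
    · exact hy
    · exact h4 z hz a1 a2 a3

theorem Cyc.exchange {Δ : Finset α} (hΔ : Δ.card = m + 5) {b c d : α} (h : Cyc G Δ b c d) {a : α}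
    (ha : a ∈ Δ) (ac : a ≠ c) (ad : a ≠ d) : Cyc G Δ a c d := by
  obtain ⟨y, hy1, hy2⟩ := Finset.exists_mem_notMem_of_card_lt_card
    (show ({a, c, d} : Finset α).card < Δ.card by have := Finset.card_le_three (a := a) (b := c) (c := d); omega)
  simp only [Finset.mem_insert, Finset.mem_singleton, not_or] at hy2
  have hT : (Δ.erase y).card = m + 4 := by rw [Finset.card_erase_of_mem hy1, hΔ]; rfl
  obtain ⟨y', hy', h'⟩ := exists_cyc ht hf hn hT (b := a) (c := c) (d := d)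
    (by simp [ha, Ne.symm hy2.1]) (by simp [h.hc, Ne.symm hy2.2.1]) (by simp [h.hd, Ne.symm hy2.2.2])
    ac ad h.cd
  by_cases e : y' = y
  · rwa [e, Finset.insert_erase hy1] at h'
  exfalso
  have hyΔ : y' ∉ Δ := fun h => hy' (Finset.mem_erase.2 ⟨e, h⟩)
  obtain ⟨u, u1, u2, u3⟩ := h.exists_swap ht hf hn hΔ
  obtain ⟨v, v1, v2, v3⟩ := h'.exists_swap ht hf hn
    (by rw [Finset.card_insert_of_notMem hy', hT])
  have e1 : u⁻¹ * v = 1 := hf.eq_one _ _ hT.ge fun z hz => by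
    rw [mul_smul, inv_smul_eq_iff]
    by_cases a2 : z = c
    · rw [a2, u1, v1]
    by_cases a3 : z = d
    · rw [a3, u2, v2]
    rw [u3 z (Finset.mem_of_mem_erase hz) a2 a3, v3 z (Finset.mem_insert_of_mem hz) a2 a3]
  obtain rfl := inv_mul_eq_one.1 e1
  have e2 : u = 1 := hf.eq_one _ (insert y' ((Δ.erase c).erase d)) (by
    rw [Finset.card_insert_of_notMem (by simp [hyΔ]),
      Finset.card_erase_of_mem (by simp [h.hd, h.cd.symm]), Finset.card_erase_of_mem h.hc]
    omega) fun z hz => by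
      simp only [Finset.mem_insert, Finset.mem_erase] at hz
      rcases hz with rfl | hz
      · exact v3 _ (Finset.mem_insert_self _ _) (by rintro rfl; exact hyΔ h.hc)
          (by rintro rfl; exact hyΔ h.hd)
      · exact u3 z hz.2.2 hz.2.1 hz.1
  rw [e2, one_smul] at u1
  exact h.cd u1

/-- The blocks of the Mathieu groups of degree 11 and 12. -/
theorem exists_Ind_top_of_sharp : ∃ Δ : Finset α, Δ.card = m + 5 ∧ Ind G Δ = ⊤ := by
  obtain ⟨T, -, hT⟩ := Finset.exists_subset_card_eq (s := (Finset.univ : Finset α)) (n := m + 4)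
    (by rw [Finset.card_univ]; omega)
  obtain ⟨b, c, d, hb, hc, hd, bc, bd, cd⟩ := Finset.two_lt_card_iff.1 (show 2 < T.card by omega)
  obtain ⟨y, hy, h⟩ := exists_cyc ht hf hn hT hb hc hd bc bd cd
  have hΔ : (insert y T).card = m + 5 := by rw [Finset.card_insert_of_notMem hy, hT]
  refine ⟨_, hΔ, Ind_eq_top_of_swap_base h.hd fun z hz zd => ?_⟩
  by_cases zc : z = c
  · obtain ⟨u, u1, u2, u3⟩ := h.exists_swap ht hf hn hΔ
    exact ⟨u, zc ▸ u2, zc ▸ u1, fun w hw a1 a2 => u3 w hw (zc ▸ a2) a1⟩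
  · exact (h.exchange ht hf hn hΔ hz zc zd).rot.exists_swap ht hf hn hΔ

end

omit [DecidableEq α] in
/-- A quadruply transitive group inducing no odd permutation on a five-set has degree at most 6. -/
theorem card_le_six [Finite G] [Finite α] (ht : IsMultiplyPretransitive G α 4)
    (E1 : ∀ (g : G) (a b c d x : α), D4 a b c d → x ≠ a ∧ x ≠ b ∧ x ≠ c ∧ x ≠ d →
      M4 g a b c d b a c d → g • x ≠ x)
    (E2 : ∀ (g : G) (a b c d x : α), D4 a b c d → x ≠ a ∧ x ≠ b ∧ x ≠ c ∧ x ≠ d →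
      M4 g a b c d b c d a → g • x ≠ x) [FaithfulSMul G α] : Nat.card α ≤ 6 := by
  classical
  by_contra hn
  have E3 : ∀ (g : G) (a x y z : α), g * g = 1 → g • a ≠ a → x ≠ y → x ≠ z → y ≠ z → g • x = x →
      g • y = y → g • z ≠ z := fun g a x y z hg ha xy xz yz hx hy hz => by
    have hgg : g • g • a = a := by rw [← mul_smul, hg, one_smul]
    have n1 : ∀ {w : α}, g • w = w → a ≠ w := by rintro _ hw rfl; exact ha hw
    have n2 : ∀ {w : α}, g • w = w → g • a ≠ w := fun hw e => n1 hw (by rw [← hgg, e, hw])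
    exact E1 g a (g • a) x y z ⟨ha.symm, n1 hx, n1 hy, n2 hx, n2 hy, xy⟩
      ⟨(n1 hz).symm, (n2 hz).symm, xz.symm, yz.symm⟩ ⟨rfl, hgg, hx, hy⟩ hz
  have h : Q4 G α := ⟨ht, fun g a b c d h1 hm hg => by
    by_contra hg1
    obtain ⟨x, hx⟩ : ∃ x : α, g • x ≠ x := by
      by_contra hc
      push Not at hc
      exact hg1 (eq_of_smul_eq_smul (α := α) fun x => by rw [hc, one_smul])
    exact E3 g x a b c hg hx h1.ab h1.ac h1.bc hm.1 hm.2 hm.3⟩
  have := Fintype.ofFinite α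
  obtain ⟨T, -, hT⟩ := Finset.exists_subset_card_eq (s := (Finset.univ : Finset α)) (n := 4)
    (by rw [Finset.card_univ, ← Nat.card_eq_fintype_card]; omega)
  obtain ⟨a, b, c, d, ab, ac, ad, bc, bd, cd, -⟩ := Finset.card_eq_four.1 hT
  have h1 : D4 a b c d := ⟨ab, ac, ad, bc, bd, cd⟩
  obtain ⟨t, z, z', ht2, hm, hz, e1, e2, -⟩ := h.exists_double (by omega) h1
  have hta : t • a ≠ a := by rw [hm.1]; exact ab.symm
  have hfix : ∀ w : α, t • w = w → w = z ∨ w = z' := fun w hw => by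
    by_contra hc
    push Not at hc
    exact E3 t a z z' w ht2 hta hz hc.1.symm hc.2.symm e1 e2 hw
  have hsw : ∀ (u : G) (a b c d : α), D4 a b c d → M4 t a b c d b a d c → M4 u a b c d b a c d →
      t * u = u * t → u • z = z' ∧ u • z' = z := fun u a b c d h1 hm hu hc => by
    have hout : ∀ {z : α}, t • z = z → z ≠ a ∧ z ≠ b ∧ z ≠ c ∧ z ≠ d := fun hz =>
      ⟨by rintro rfl; exact h1.ab (hz.symm.trans hm.1), by rintro rfl; exact h1.ab (hm.2.symm.trans hz),
        by rintro rfl; exact h1.cd (hz.symm.trans hm.3), by rintro rfl; exact h1.cd (hm.4.symm.trans hz)⟩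
    exact ⟨(hfix _ (smul_fix_of_comm hc.symm e1)).resolve_left (E1 u a b c d z h1 (hout e1) hu),
      (hfix _ (smul_fix_of_comm hc.symm e2)).resolve_right (E1 u a b c d z' h1 (hout e2) hu)⟩
  obtain ⟨u, hu, hmu, hc⟩ := h.exists_transp_comm h1 ht2 hm
  obtain ⟨x, -, hx⟩ := Finset.exists_mem_notMem_of_card_lt_card
    (show (({a, b, c, d} : Finset α) ∪ {z, z'}).card < (Finset.univ : Finset α).card by
      have := Finset.card_union_le ({a, b, c, d} : Finset α) {z, z'}
      have := Finset.card_le_four (a := a) (b := b) (c := c) (d := d)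
      have := Finset.card_le_two (a := z) (b := z')
      rw [Finset.card_univ, ← Nat.card_eq_fintype_card]; omega)
  simp only [Finset.mem_union, Finset.mem_insert, Finset.mem_singleton, not_or] at hx
  obtain ⟨d4, mt, mu⟩ := h.regular_four h1 ht2 hu hm hmu hc hx.1 fun e => by
    have := hfix x e
    tauto
  obtain ⟨w, hw, hmw, hcw⟩ := h.exists_transp_comm d4 ht2 mt
  refine E2 (w * u) x (u • x) (t • x) (t • u • x) z ⟨d4.ac, d4.ab, d4.ad, d4.bc.symm, d4.cd, d4.bd⟩
    ⟨?_, ?_, ?_, ?_⟩ ⟨by rw [mul_smul, hmw.3], by rw [mul_smul, mu.3, hmw.1],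
      by rw [mul_smul, mu.2, hmw.4], by rw [mul_smul, mu.4, hmw.2]⟩
    (by rw [mul_smul, (hsw u a b c d h1 hm hmu hc).1, (hsw w _ _ _ _ d4 mt hmw hcw).2])
  · rintro rfl; exact d4.ab e1.symm
  · intro e; exact d4.cd (by rw [← e, e1])
  · intro e; exact d4.ab ((smul_left_cancel t (e1.trans e)).symm.trans e)
  · intro e; exact d4.cd ((smul_left_cancel t (e1.trans e)).symm.trans e)

theorem alt_le_Ind_map {ι : Type*} [Fintype ι] [DecidableEq ι] (x : ι ↪ α)
    (h : ∀ σ ∈ alternatingGroup ι, ∃ g : G, ∀ i, g • x i = x (σ i)) :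
    alternatingGroup (Finset.univ.map x) ≤ Ind G (Finset.univ.map x) := by
  let e : ι ≃ (Finset.univ.map x) := Equiv.ofBijective
    (fun i => ⟨x i, Finset.mem_map_of_mem _ (Finset.mem_univ i)⟩)
    ⟨fun i j e => x.injective (congrArg Subtype.val e), fun y => by
      obtain ⟨i, -, hi⟩ := Finset.mem_map.1 y.2
      exact ⟨i, Subtype.ext hi⟩⟩
  intro σ hσ
  obtain ⟨g, hg⟩ := h (e.symm.permCongr σ) (by
    rw [Equiv.Perm.mem_alternatingGroup, Equiv.Perm.sign_permCongr]; exact hσ)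
  refine ⟨g, fun y => ?_⟩
  obtain ⟨i, rfl⟩ := e.surjective y
  exact (hg i).trans (congrArg Subtype.val (e.apply_symm_apply _))

omit [DecidableEq α] in
/-- The normaliser of a subgroup acts on its fixed points. -/
def fixAct (Q : Subgroup G) : SubMulAction (Subgroup.normalizer (Q : Set G)) α where
  carrier := fixedPoints Q α
  smul_mem' := fun g x hx q => by
    have := hx ⟨g⁻¹ * q * g, (Subgroup.mem_normalizer_iff''.1 g.2 q).1 q.2⟩
    change ((g : G)⁻¹ * q * g) • x = x at this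
    change (q : G) • (g : G) • x = (g : G) • x
    rwa [mul_smul, mul_smul, inv_smul_eq_iff] at this

/-- The normaliser of a maximal `p`-subgroup with many fixed points (Witt, Gleason). -/
theorem multi_fixAct [Finite G] [Finite α] {k p : ℕ} (hp : p.Prime)
    (ht : IsMultiplyPretransitive G α (k + 1)) {Q : Subgroup G}
    (hQ : Maximal (fun R : Subgroup G => IsPGroup p R ∧ k + 1 < (fixedPoints R α).ncard) Q) :
    IsMultiplyPretransitive (Subgroup.normalizer (Q : Set G)) (fixAct (α := α) Q) (k + 1) := by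
  have := Fact.mk hp
  by_cases hA : ∃ x : Fin (k + 1) ↪ fixAct (α := α) Q, ∀ R : Subgroup G, IsPGroup p R → Q ≤ R →
    (∀ g ∈ R, ∀ i, g • (x i : α) = x i) → R ≤ Q
  · obtain ⟨x, hx⟩ := hA
    have key : ∀ y : Fin (k + 1) → fixAct (α := α) Q, Function.Injective y →
        ∃ g : Subgroup.normalizer (Q : Set G), ∀ i, g • y i = x i := by
      intro y hy
      obtain ⟨g, hg⟩ := H26.multi_iff_fun.1 ht (fun i => y i) (fun i => x i)
        (Subtype.val_injective.comp hy) (Subtype.val_injective.comp x.injective)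
      let H : Subgroup G := fixingSubgroup G (Set.range fun i => (x i : α))
      have mH : ∀ {u : G}, u ∈ H ↔ ∀ i, u • (x i : α) = x i := by
        simp [H, mem_fixingSubgroup_iff]
      have h1 : Q ≤ H := fun u hu => mH.2 fun i => (x i).2 ⟨u, hu⟩
      have h2 : Q.map (MulAut.conj g).toMonoidHom ≤ H := by
        rintro _ ⟨u, hu, rfl⟩
        refine mH.2 fun i => ?_
        rw [← hg i]
        exact conj_smul_eq g ((y i).2 ⟨u, hu⟩)
      obtain ⟨P1, hP1⟩ := (hQ.1.1.of_equiv (Subgroup.subgroupOfEquivOfLe h1).symm).exists_le_sylow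
      obtain ⟨P2, hP2⟩ :=
        ((hQ.1.1.map (MulAut.conj g).toMonoidHom).of_equiv
          (Subgroup.subgroupOfEquivOfLe h2).symm).exists_le_sylow
      obtain ⟨h, hh⟩ := exists_smul_eq H P2 P1
      have h3 : (P1 : Subgroup H).map H.subtype ≤ Q := hx _ (P1.isPGroup'.map _)
        (fun u hu => ⟨⟨u, h1 hu⟩, hP1 hu, rfl⟩) (by rintro _ ⟨u, -, rfl⟩; exact mH.1 u.2)
      refine ⟨⟨h * g, Subgroup.mem_normalizer_fintype fun u hu => h3
        ⟨h * ⟨g * u * g⁻¹, h2 ⟨u, hu, rfl⟩⟩ * h⁻¹, ?_, by simp [mul_assoc]⟩⟩, fun i => Subtype.ext ?_⟩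
      · rw [← hh]
        exact Subgroup.smul_mem_pointwise_smul _ (MulAut.conj h) _ (hP2 ⟨u, hu, rfl⟩)
      · change ((h : G) * g) • (y i : α) = x i
        rw [mul_smul, hg i, mH.1 h.2]
    refine H26.multi_iff_fun.2 fun y z hy hz => ?_
    obtain ⟨g, hg⟩ := key y hy
    obtain ⟨g', hg'⟩ := key z hz
    exact ⟨g'⁻¹ * g, fun i => by rw [mul_smul, hg, inv_smul_eq_iff, hg']⟩
  push Not at hA
  have := Fintype.ofFinite (fixAct (α := α) Q)
  refine gleason hp (by rw [← Nat.card_eq_fintype_card]; exact hQ.1.2) fun s hs => ?_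
  obtain ⟨R, hR, hQR, hRx, hn⟩ := hA
    ((Finset.equivFinOfCardEq hs).symm.toEmbedding.trans (Function.Embedding.subtype _))
  have hRs : ∀ g ∈ R, ∀ y ∈ s, g • (y : α) = y := fun g hg y hy => by
    simpa using hRx g hg (Finset.equivFinOfCardEq hs ⟨y, hy⟩)
  have h1 : ¬ R ⊓ Subgroup.normalizer (Q : Set G) ≤ Q := by
    intro h
    have := hR.isNilpotent
    have h2 := Group.normalizerCondition_of_isNilpotent (G := R) (Q.subgroupOf R)
      (lt_top_iff_ne_top.2 fun e => hn (Subgroup.subgroupOf_eq_top.1 e))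
    rw [← Subgroup.subgroupOf_normalizer_eq hQR] at h2
    exact h2.2 fun u hu => h ⟨u.2, hu⟩
  refine ⟨R.subgroupOf _, (hR.to_inf_left.of_equiv (Subgroup.subgroupOfEquivOfLe inf_le_right).symm
    |> fun h => by rwa [Subgroup.inf_subgroupOf_right] at h), Set.Subset.antisymm (fun y hy => ?_)
    fun y hy g => Subtype.ext (hRs _ g.2 y hy)⟩
  by_contra hys
  refine h1 (hQ.2 ⟨hR.to_inf_left, ?_⟩ (le_inf hQR Subgroup.le_normalizer))
  have h3 : (((insert y s).map (Function.Embedding.subtype _) : Finset α) : Set α) ⊆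
      fixedPoints ↥(R ⊓ Subgroup.normalizer (Q : Set G)) α := by
    intro w hw g
    obtain ⟨w', hw', rfl⟩ := Finset.mem_map.1 hw
    rcases Finset.mem_insert.1 hw' with rfl | hw'
    · exact congrArg Subtype.val (hy ⟨⟨g, g.2.2⟩, g.2.1⟩)
    · exact hRs _ g.2.1 w' hw'
  have h4 := Set.ncard_le_ncard h3
  rw [Set.ncard_coe_finset, Finset.card_map, Finset.card_insert_of_notMem hys, hs] at h4
  exact h4

end H27
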