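import Mathlib
import Cfsg.Agent.Base
import Cfsg.Agent.Lib.Perm27.Coord

/-! Affine groups whose point stabiliser has an irreducible abelian normal subgroup are
one-dimensional semi-affine. -/

set_option autoImplicit false

open MulAction

namespace H27

variable {G Ω : Type*} [Group G] [MulAction G Ω]

theorem exists_semiaffine [Finite G] {N A : Subgroup G} [hN : N.Normal] {a : Ω} (hN1 : N ≠ ⊥)
    (hNc : ∀ u ∈ N, ∀ v ∈ N, u * v = v * u) (htr : ∀ x : Ω, ∃ n ∈ N, n • a = x)
    (hreg : ∀ n ∈ N, n • a = a → n = 1) (hAa : ∀ h ∈ A, h • a = a)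
    (hAc : ∀ h ∈ A, ∀ k ∈ A, h * k = k * h) (hAn : ∀ g : G, g • a = a → ∀ h ∈ A, g * h * g⁻¹ ∈ A)
    (hirr : ∀ W ≤ N, (∀ h ∈ A, ∀ w ∈ W, h * w * h⁻¹ ∈ W) → W = ⊥ ∨ W = N) :
    ∃ (F : Type) (_ : Field F) (_ : Fintype F) (e : F ≃ Ω), e 0 = a ∧
      (∀ c : F, ∃ n ∈ N, ∀ x : F, n • e x = e (x + c)) ∧
      (∀ h ∈ A, ∃ c : F, ∀ x : F, h • e x = e (c * x)) ∧
      ∀ g : G, ∃ (c : Fˣ) (b : F) (φ : F ≃+* F), ∀ x : F, g • e x = e (c * φ x + b) := by
  let _ : CommGroup N := { (inferInstance : Group N) with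
    mul_comm := fun u v => Subtype.ext (hNc u u.2 v v.2) }
  have : Nontrivial N := (Subgroup.nontrivial_iff_ne_bot N).2 hN1
  let cj : G → AddMonoid.End (Additive N) := fun g =>
    MonoidHom.toAdditive (MulAut.conjNormal g : N ≃* N).toMonoidHom
  have hcj : ∀ (g : G) (x : Additive N),
      ((Additive.toMul (cj g x) : N) : G) = g * (Additive.toMul x : N) * g⁻¹ := fun _ _ => rfl
  have hext : ∀ x y : Additive N,
      ((Additive.toMul x : N) : G) = (Additive.toMul y : N) → x = y :=
    fun x y h => Additive.toMul.injective (Subtype.ext h)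
  let e₀ : Additive N ≃ Ω := Equiv.ofBijective (fun x => ((Additive.toMul x : N) : G) • a)
    ⟨fun x y h => hext _ _ (by
      have := hreg _ (N.mul_mem (N.inv_mem (Additive.toMul y).2) (Additive.toMul x).2)
        (by rw [mul_smul, inv_smul_eq_iff]; exact h)
      exact (inv_mul_eq_one.1 this).symm), fun y => by
      obtain ⟨n, hn, h⟩ := htr y
      exact ⟨Additive.ofMul ⟨n, hn⟩, h⟩⟩
  have h0 : ∀ (g : G), g • a = a → ∀ x, g • e₀ x = e₀ (cj g x) := fun g hg x => by
    change g • ((Additive.toMul x : N) : G) • a = (g * (Additive.toMul x : N) * g⁻¹) • a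
    rw [mul_smul, mul_smul, inv_smul_eq_iff.2 hg.symm]
  have h1 : ∀ c x : Additive N, ((Additive.toMul c : N) : G) • e₀ x = e₀ (x + c) := fun c x => by
    change _ • ((Additive.toMul x : N) : G) • a =
      ((Additive.toMul x * Additive.toMul c : N) : G) • a
    rw [mul_comm, Subgroup.coe_mul, mul_smul]
  have hirr' : ∀ W : AddSubgroup (Additive N), (∀ h ∈ A, ∀ w ∈ W, cj h w ∈ W) →
      W = ⊥ ∨ W = ⊤ := by
    intro W hW
    rcases hirr ((AddSubgroup.toSubgroup' W).map N.subtype) (Subgroup.map_subtype_le _) (by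
      rintro h hh _ ⟨w, hw, rfl⟩
      exact ⟨Additive.toMul (cj h (Additive.ofMul w)), hW h hh _ hw, rfl⟩) with h | h
    · left
      rw [eq_bot_iff]
      intro w hw
      have : ((Additive.toMul w : N) : G) ∈ (⊥ : Subgroup G) := h ▸ ⟨_, hw, rfl⟩
      exact hext _ _ this
    · right
      rw [eq_top_iff]
      intro w _
      obtain ⟨v, hv, e⟩ : ((Additive.toMul w : N) : G) ∈ (AddSubgroup.toSubgroup' W).map N.subtype :=
        h.symm ▸ (Additive.toMul w).2
      rwa [← hext (Additive.ofMul v) w e]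
  obtain ⟨F, _, _, f, hM, -⟩ := exists_field_of_comm (Additive N) (cj '' A) (by
      rintro _ ⟨h, hh, rfl⟩ _ ⟨k, hk, rfl⟩
      ext x
      change ((Additive.toMul (cj h (cj k x)) : N) : G) = (Additive.toMul (cj k (cj h x)) : N)
      simp only [hcj]
      calc _ = (h * k) * ((Additive.toMul x : N) : G) * (h * k)⁻¹ := by group
        _ = _ := by rw [hAc h hh k hk]; group)
    (fun W hW => hirr' W fun h hh => hW _ ⟨h, hh, rfl⟩)
  have htrans : ∀ c : F, ∃ n ∈ N, ∀ x : F, n • e₀ (f x) = e₀ (f (x + c)) := fun c =>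
    ⟨_, (Additive.toMul (f c)).2, fun x => by rw [h1, map_add f]⟩
  have hstab : ∀ g : G, g • a = a → ∃ (c : Fˣ) (φ : F ≃+* F), ∀ x : F,
      g • e₀ (f x) = e₀ (f (c * φ x)) := by
    intro g hg
    let ψ : F →+ F := f.symm.toAddMonoidHom.comp ((cj g).comp f.toAddMonoidHom)
    have hψ : ∀ x, f (ψ x) = cj g (f x) := fun x => f.apply_symm_apply _
    have hinj : Function.Injective ψ := fun x y h => by
      have h2 := congrArg (fun z => ((Additive.toMul (f z) : N) : G)) h
      simp only [hψ, hcj] at h2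
      exact f.injective (hext _ _ (by simpa using h2))
    have hψ1 : ψ 1 ≠ 0 := fun h => one_ne_zero (hinj (h.trans (map_zero ψ).symm))
    let T : AddSubgroup F :=
      { carrier := {c | ∀ x, ψ (c * x) * ψ 1 = ψ c * ψ x}
        zero_mem' := fun x => by simp
        add_mem' := fun {c d} hc hd x => by rw [add_mul, map_add, add_mul, hc, hd, map_add, add_mul]
        neg_mem' := fun {c} hc x => by rw [neg_mul, map_neg, neg_mul, hc, map_neg, neg_mul] }
    have hT : T = ⊤ := by
      rcases hirr' (T.map f.toAddMonoidHom) (by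
        rintro h hh _ ⟨c, hc, rfl⟩
        obtain ⟨d, hd⟩ := hM _ ⟨h, hh, rfl⟩
        obtain ⟨d', hd'⟩ := hM _ ⟨_, hAn g hg h hh, rfl⟩
        have key : ∀ x, ψ (d * x) = d' * ψ x := fun x => f.injective (by
          rw [← hd', hψ, hψ, ← hd]
          apply hext
          simp only [hcj]
          group)
        refine ⟨d * c, fun x => ?_, (hd c).symm⟩
        rw [mul_assoc, key, key, mul_assoc, hc, mul_assoc]) with h | h
      · have : f 1 ∈ (⊥ : AddSubgroup (Additive N)) := h ▸ ⟨1, fun x => by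
          rw [one_mul, mul_comm], rfl⟩
        exact absurd (f.injective ((AddSubgroup.mem_bot.1 this).trans (map_zero f).symm))
          one_ne_zero
      · rw [eq_top_iff]
        intro c _
        obtain ⟨d, hd, e⟩ : f c ∈ T.map f.toAddMonoidHom := h.symm ▸ AddSubgroup.mem_top _
        rwa [← f.injective e]
    let σ : F →+* F :=
      { toFun := fun x => ψ x / ψ 1
        map_one' := div_self hψ1
        map_mul' := fun x y => by
          have : ψ (x * y) * ψ 1 = ψ x * ψ y := (hT ▸ AddSubgroup.mem_top x : x ∈ T) y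
          field_simp
          rw [← this]
        map_zero' := by simp
        map_add' := fun x y => by rw [map_add, add_div] }
    refine ⟨Units.mk0 _ hψ1, RingEquiv.ofBijective σ
      (Finite.injective_iff_bijective.1 σ.injective), fun x => ?_⟩
    rw [h0 g hg, ← hψ]
    congr 2
    change ψ x = ψ 1 * (ψ x / ψ 1)
    field_simp
  have hz : e₀ (f 0) = a := by rw [map_zero]; exact one_smul G a
  refine ⟨F, inferInstance, inferInstance, f.toEquiv.trans e₀, hz, htrans, fun h hh => ?_,
    fun g => ?_⟩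
  · obtain ⟨c, hc⟩ := hM _ ⟨h, hh, rfl⟩
    exact ⟨c, fun x => by
      change h • e₀ (f x) = e₀ (f (c * x))
      rw [h0 h (hAa h hh), hc]⟩
  · obtain ⟨b, hb⟩ := (f.toEquiv.trans e₀).surjective (g • a)
    obtain ⟨n, -, hn⟩ := htrans b
    have h2 : n • a = g • a := by rw [← hb, ← hz, hn, zero_add]; rfl
    obtain ⟨c, φ, h3⟩ := hstab (n⁻¹ * g) (by rw [mul_smul, ← h2, inv_smul_smul])
    refine ⟨c, b, φ, fun x => ?_⟩
    change g • e₀ (f x) = e₀ (f _)
    rw [← hn, ← h3, mul_smul, smul_inv_smul]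

/-- Transport of semi-affine coordinates along a field isomorphism. -/
theorem semiaffine_transport {α F K : Type*} [Field F] [Field K] (i : F ≃+* K) (e : F ≃ α)
    {g : Equiv.Perm α} {c : Fˣ} {b : F} {φ : F ≃+* F} (h : ∀ x : F, g (e x) = e (c * φ x + b)) :
    (e.symm.trans i.toEquiv).symm.trans (g.trans (e.symm.trans i.toEquiv)) ∈
      Cfsg.semiaffineGroup K := by
  refine ⟨Units.map (i : F →* K) c, i b, (i.symm.trans φ).trans i, fun x => ?_⟩
  change i (e.symm (g (e (i.symm x)))) = i c * i (φ (i.symm x)) + i b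
  rw [h, Equiv.symm_apply_apply, map_add, map_mul]

end H27
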